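import Mathlib

/-!
# Weights of an abelian section in a complex representation

`τ` is a multiplicative map from a finite abelian group `M` into the endomorphisms; its value at
zero is an idempotent, the identity of the image.
-/

set_option autoImplicit false
set_option linter.unusedSectionVars false

namespace CfsgLib.Chev.D4Degree

open LinearMap

universe u v w

variable {M : Type u} [AddCommGroup M] [Fintype M] {F : Type v} [Field F]
  {V : Type w} [AddCommGroup V] [Module ℂ V] [FiniteDimensional ℂ V]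

/-- The data: the map and a non-degenerate pairing followed by a character. -/
structure Wts (M : Type u) [AddCommGroup M] (F : Type v) [Field F] (V : Type w) [AddCommGroup V]
    [Module ℂ V] where
  /-- the map -/
  τ : M → Module.End ℂ V
  τ_add : ∀ m n, τ (m + n) = τ m * τ n
  /-- the pairing -/
  pair : M →+ M →+ F
  nondeg : ∀ p, p ≠ 0 → ∃ m, pair p m ≠ 0
  symm : ∀ p m, pair p m = pair m p
  smul_surj : ∀ (p m : M) (a : F), ∃ m', pair p m' = a * pair p m
  /-- the character -/
  ψ : AddChar F ℂ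
  hψ : ψ ≠ 1

namespace Wts

variable (D : Wts M F V)

/-- The character of `M` with the parameter `p`. -/
def χ (p : M) : AddChar M ℂ := D.ψ.compAddMonoidHom (D.pair p)

theorem χ_apply (p m : M) : D.χ p m = D.ψ (D.pair p m) := rfl

theorem χ_ne_one {p : M} (hp : p ≠ 0) : D.χ p ≠ 1 := by
  intro h
  obtain ⟨m, hm⟩ := D.nondeg p hp
  refine D.hψ (AddChar.ext _ _ fun a => ?_)
  obtain ⟨m', hm'⟩ := D.smul_surj p m (a / D.pair p m)
  have := DFunLike.congr_fun h m'
  rw [χ_apply, hm', div_mul_cancel₀ _ hm] at this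
  rw [this, AddChar.one_apply, AddChar.one_apply]

theorem eq_of_χ {p p' : M} (h : ∀ m, D.χ p m = D.χ p' m) : p = p' := by
  by_contra hne
  refine D.χ_ne_one (sub_ne_zero.2 hne) (AddChar.ext _ _ fun m => ?_)
  rw [AddChar.one_apply, χ_apply, map_sub, AddMonoidHom.sub_apply]
  have h' := h m
  rw [χ_apply, χ_apply] at h'
  rw [AddChar.map_sub_eq_div, h', div_self]
  intro h0
  have h1 := AddChar.map_add_eq_mul D.ψ (D.pair p' m) (-(D.pair p' m))
  rw [h0, zero_mul, add_neg_cancel, AddChar.map_zero_eq_one] at h1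
  exact one_ne_zero h1

/-- The projection to a weight. -/
noncomputable def R (p : M) : Module.End ℂ V :=
  (Fintype.card M : ℂ)⁻¹ • ∑ m, D.χ p (-m) • D.τ m

theorem τ_mul_R (p n : M) : D.τ n * D.R p = D.χ p n • D.R p := by
  rw [R, mul_smul_comm, smul_comm (D.χ p n)]
  congr 1
  rw [Finset.mul_sum, Finset.smul_sum]
  refine Fintype.sum_equiv (Equiv.addRight n) _ _ fun m => ?_
  rw [Equiv.coe_addRight, mul_smul_comm, ← D.τ_add, smul_smul, ← AddChar.map_add_eq_mul, add_comm n]
  rw [show n + -(m + n) = -m by rw [neg_add_rev, add_neg_cancel_left]]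

theorem R_mul_τ (p n : M) : D.R p * D.τ n = D.τ n * D.R p := by
  rw [R, mul_smul_comm, smul_mul_assoc, Finset.sum_mul, Finset.mul_sum]
  congr 1
  refine Finset.sum_congr rfl fun m _ => ?_
  rw [mul_smul_comm, smul_mul_assoc, ← D.τ_add, ← D.τ_add, add_comm]

theorem sum_χ [DecidableEq M] (p : M) : ∑ m, D.χ p m = if p = 0 then (Fintype.card M : ℂ) else 0 := by
  split_ifs with h
  · subst h
    simp [χ_apply]
  · exact AddChar.sum_eq_zero_of_ne_one (D.χ_ne_one h)

theorem R_mul_R [DecidableEq M] (p p' : M) : D.R p * D.R p' = if p = p' then D.R p else 0 := by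
  conv_lhs => arg 1; rw [R]
  rw [smul_mul_assoc, Finset.sum_mul]
  simp only [smul_mul_assoc, τ_mul_R, smul_smul]
  rw [← Finset.sum_smul, smul_smul]
  have e : ∑ m, D.χ p (-m) * D.χ p' m = if p = p' then (Fintype.card M : ℂ) else 0 := by
    rw [show (if p = p' then (Fintype.card M : ℂ) else 0) = if p' - p = 0 then (Fintype.card M : ℂ) else 0 by
      simp [sub_eq_zero, eq_comm], ← D.sum_χ]
    refine Finset.sum_congr rfl fun m _ => ?_
    rw [χ_apply, χ_apply, χ_apply, map_neg, map_sub, AddMonoidHom.sub_apply, ← AddChar.map_add_eq_mul]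
    congr 1
    ring
  rw [e]
  split_ifs with h
  · subst h; rw [inv_mul_cancel₀ (Nat.cast_ne_zero.2 Fintype.card_ne_zero), one_smul]
  · rw [mul_zero, zero_smul]

/-- The weights of those parameters which are orthogonal to a subgroup add up to its average. -/
theorem sum_R_subgroup [DecidableEq M] {ι : Type*} [AddCommGroup ι] [Fintype ι] (f : ι →+ M)
    (good : M → Prop) [DecidablePred good] (hgood : ∀ p, good p ↔ ∀ i, D.pair p (f i) = 0)
    (hbad : ∀ p i, D.pair p (f i) ≠ 0 → ∀ a : F, ∃ j, D.pair p (f j) = a * D.pair p (f i)) :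
    ∑ p ∈ Finset.univ.filter good, D.R p = (Fintype.card ι : ℂ)⁻¹ • ∑ i, D.τ (f i) := by
  have hs : ∀ p, ∑ i, D.χ p (f i) = if good p then (Fintype.card ι : ℂ) else 0 := by
    intro p
    split_ifs with h
    · rw [Finset.sum_congr rfl fun i _ => by rw [χ_apply, (hgood p).1 h i, AddChar.map_zero_eq_one]]
      simp
    · obtain ⟨i, hi⟩ := not_forall.1 (fun h' => h ((hgood p).2 h'))
      refine AddChar.sum_eq_zero_of_ne_one (ψ := (D.χ p).compAddMonoidHom f) fun h1 => D.hψ ?_
      refine AddChar.ext _ _ fun a => ?_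
      obtain ⟨j, hj⟩ := hbad p i hi (a / D.pair p (f i))
      have := DFunLike.congr_fun h1 j
      rw [AddChar.compAddMonoidHom_apply, χ_apply, hj, div_mul_cancel₀ _ hi] at this
      rw [this, AddChar.one_apply, AddChar.one_apply]
  have hsum : ∑ p, D.R p = D.τ 0 := by
    simp only [R, ← Finset.smul_sum]
    rw [Finset.sum_comm]
    simp only [← Finset.sum_smul]
    rw [Finset.sum_eq_single (0 : M)]
    · simp [χ_apply, smul_smul, Fintype.card_ne_zero]
    · intro m _ hm
      have e : ∑ p, D.χ p (-m) = 0 := by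
        rw [Finset.sum_congr rfl fun p _ => show D.χ p (-m) = D.χ (-m) p by rw [χ_apply, χ_apply, D.symm]]
        rw [D.sum_χ, if_neg (neg_ne_zero.2 hm)]
      rw [e, zero_smul]
    · simp
  have hτ : ∀ m, D.τ m = ∑ p, D.χ p m • D.R p := fun m => by
    conv_lhs => rw [show m = m + 0 from (add_zero m).symm, D.τ_add, ← hsum, Finset.mul_sum]
    simp only [τ_mul_R]
  simp only [hτ]
  rw [Finset.sum_comm]
  simp only [← Finset.sum_smul, hs, ite_smul, zero_smul, ← Finset.sum_filter, Finset.smul_sum, smul_smul,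
    inv_mul_cancel₀ (Nat.cast_ne_zero.2 (Fintype.card_ne_zero (α := ι)) : (Fintype.card ι : ℂ) ≠ 0), one_smul]

theorem sum_R : ∑ p, D.R p = D.τ 0 := by
  classical
  have h := D.sum_R_subgroup (ι := PUnit.{1}) 0 (fun _ => True) (fun p => by simp) (fun p i h => by simp at h)
  simpa using h

/-- The multiplicity of a weight. -/
noncomputable def mult (p : M) : ℕ := Module.finrank ℂ (LinearMap.range (D.R p))

theorem trace_R (p : M) : trace ℂ V (D.R p) = (D.mult p : ℂ) := by
  classical
  have hp : D.R p * D.R p = D.R p := by rw [R_mul_R, if_pos rfl]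
  have hproj : LinearMap.IsProj (LinearMap.range (D.R p)) (D.R p) :=
    ⟨fun x => ⟨x, rfl⟩, by rintro x ⟨y, rfl⟩; rw [← Module.End.mul_apply, hp]⟩
  exact hproj.trace

theorem mult_eq_zero {p : M} : D.mult p = 0 ↔ D.R p = 0 := by
  rw [mult, Submodule.finrank_eq_zero, LinearMap.range_eq_bot]

theorem sum_mult_eq_trace {T : Module.End ℂ V} (s : Finset M) (h : ∑ p ∈ s, D.R p = T) :
    trace ℂ V T = ((∑ p ∈ s, D.mult p : ℕ) : ℂ) := by
  rw [← h, map_sum, Nat.cast_sum]
  exact Finset.sum_congr rfl fun p _ => D.trace_R p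

/-- Conjugation carries a weight space to eigenvectors, hence meets another weight. -/
theorem exists_transport {p : M} (hp : D.mult p ≠ 0) (A B : Module.End ℂ V) (hAB : A * B = 1) (hBA : B * A = 1)
    (h0 : A * D.τ 0 = D.τ 0 * A) :
    ∃ p' : M, D.mult p' ≠ 0 ∧ ∀ (n : M) (c : ℂ), B * D.τ n * A * D.R p = c • D.R p → D.χ p' n = c := by
  classical
  have hRp : D.R p ≠ 0 := fun h => hp (D.mult_eq_zero.2 h)
  have hAR : A * D.R p ≠ 0 := fun h => hRp (by
    rw [show D.R p = B * (A * D.R p) by rw [← mul_assoc, hBA, one_mul], h, mul_zero])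
  have h1 : D.τ 0 * D.R p = D.R p := by rw [τ_mul_R, χ_apply, map_zero, AddChar.map_zero_eq_one, one_smul]
  have h2 : D.τ 0 * (A * D.R p) = A * D.R p := by rw [← mul_assoc, ← h0, mul_assoc, h1]
  have h3 : ∑ p', D.R p' * (A * D.R p) = A * D.R p := by rw [← Finset.sum_mul, D.sum_R, h2]
  obtain ⟨p', hp'⟩ : ∃ p', D.R p' * (A * D.R p) ≠ 0 := by
    by_contra hall
    push Not at hall
    exact hAR (by rw [← h3]; exact Finset.sum_eq_zero fun p' _ => hall p')
  refine ⟨p', fun h => hp' (by rw [D.mult_eq_zero.1 h, zero_mul]), fun n c hc => ?_⟩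
  have e1 : D.τ n * (A * D.R p) = c • (A * D.R p) := by
    rw [← mul_smul_comm, ← hc, ← mul_assoc A, ← mul_assoc A, ← mul_assoc A, hAB, one_mul, mul_assoc]
  have e2 : D.χ p' n • (D.R p' * (A * D.R p)) = c • (D.R p' * (A * D.R p)) := by
    rw [← mul_smul_comm c, ← e1, ← mul_assoc (D.R p') (D.τ n), R_mul_τ, τ_mul_R, smul_mul_assoc]
  by_contra hne
  rw [← sub_eq_zero, ← sub_smul] at e2
  exact hp' ((smul_eq_zero.1 e2).resolve_left (sub_ne_zero.2 hne))

end Wts

end CfsgLib.Chev.D4Degree
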