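import Cfsg.Agent.Chev.ReeDegree.Weights
import Cfsg.Agent.Chev.D4Degree.Weights

/-!
# The least degree of a representation of a group with the Heisenberg section of `³D₄(q)`
-/

set_option autoImplicit false
set_option linter.unusedSectionVars false
set_option linter.unusedSimpArgs false

namespace CfsgLib.Chev.D4Degree

open LinearMap CfsgLib.Chev.ReeDegree

universe u v w x

/-- The Heisenberg subgroup with the elements normalising it. -/
structure Data (G : Type u) [Group G] (F : Type v) [Field F] (K : Type w) [Field K] where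
  /-- the first layer -/
  xb : F → G
  /-- the second layer -/
  xc : K → G
  /-- the third layer -/
  xd : K → G
  /-- the fourth layer -/
  xe : F → G
  /-- the centre -/
  z : F → G
  xb_add : ∀ a b, xb (a + b) = xb a * xb b
  xc_add : ∀ a b, xc (a + b) = xc a * xc b
  xd_add : ∀ a b, xd (a + b) = xd a * xd b
  xe_add : ∀ a b, xe (a + b) = xe a * xe b
  z_add : ∀ a b, z (a + b) = z a * z b
  /-- the scalars -/
  sc : F →+* K
  /-- the trace -/
  tr : K →+ F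
  tr_sc : ∀ a x, tr (sc a * x) = a * tr x
  tr_surj : ∀ c, c ≠ 0 → ∀ a, ∃ d, tr (c * d) = a
  zb : ∀ v a, xb a * z v = z v * xb a
  zc : ∀ v a, xc a * z v = z v * xc a
  zd : ∀ v a, xd a * z v = z v * xd a
  ze : ∀ v a, xe a * z v = z v * xe a
  bc : ∀ a b, xc b * xb a = xb a * xc b
  bd : ∀ a b, xd b * xb a = xb a * xd b
  ce : ∀ a b, xe b * xc a = xc a * xe b
  de : ∀ a b, xe b * xd a = xd a * xe b
  be : ∀ a b, xe b * xb a = xb a * xe b * z (-(a * b))
  cd : ∀ a b, xd b * xc a = xc a * xd b * z (tr (a * b))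
  ztrans : ∀ a : F, a ≠ 0 → ∃ h, ∀ v, h * z v = z (a * v) * h
  scal : ∀ l : F, l ≠ 0 → ∃ (h : G) (m : F), m ≠ 0 ∧ (∀ v, h * z v = z (m * v) * h) ∧
    (∀ v, h * xb v = xb (l * v) * h) ∧ (∀ v, h * xc v = xc (sc l * v) * h) ∧
    (∀ v, h * xd v = xd (sc l * v) * h) ∧ (∀ v, h * xe v = xe (l * v) * h)
  toE : ∃ w, ∀ v, w * z v = xe v * w
  toB : ∃ w, ∀ v, w * z v = xb (-v) * w
  shift : ∀ l : K, ∃ g, (∀ v, g * z v = z v * g) ∧ (∀ v, g * xe v = xe v * g) ∧
    ∀ d, xd d * g = g * (xd d * xe (tr (l * d)))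
  kill : ∀ β : F, ∃ g, (∀ v, g * z v = z v * g) ∧ (∀ v, g * xe v = xe v * g) ∧
    ∀ v, ∃ (c d : K) (t : F), xb v * g = g * (xb v * xc c * xd d * xe (-(β * v)) * z t)
  twist : ∃ (h : G) (m : F) (κ ν : K), m ≠ 0 ∧ κ ≠ 1 ∧ (∀ v, h * z v = z (m * v) * h) ∧
    (∀ v, h * xc v = xc (κ * v) * h) ∧ (∀ v, h * xd v = xd (ν * v) * h) ∧ ∀ v, h * xe v = xe v * h

namespace Data

variable {G : Type u} [Group G] {F : Type v} [Field F] [Fintype F] {K : Type w} [Field K] [Fintype K]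
  (D : Data G F K) {V : Type x} [AddCommGroup V] [Module ℂ V] [FiniteDimensional ℂ V]
  (ρ : G →* Module.End ℂ V)

theorem one_of_add {A : Type w} [AddGroup A] (f : A → G) (h : ∀ a b, f (a + b) = f a * f b) : f 0 = 1 := by
  have h0 := h 0 0
  rw [add_zero] at h0
  exact mul_eq_left.1 h0.symm

theorem xb_zero : D.xb 0 = 1 := mul_eq_left.1 (show D.xb 0 * D.xb 0 = D.xb 0 by rw [← D.xb_add, add_zero])
theorem xc_zero : D.xc 0 = 1 := mul_eq_left.1 (show D.xc 0 * D.xc 0 = D.xc 0 by rw [← D.xc_add, add_zero])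
theorem xd_zero : D.xd 0 = 1 := mul_eq_left.1 (show D.xd 0 * D.xd 0 = D.xd 0 by rw [← D.xd_add, add_zero])
theorem xe_zero : D.xe 0 = 1 := mul_eq_left.1 (show D.xe 0 * D.xe 0 = D.xe 0 by rw [← D.xe_add, add_zero])

/-- The character. -/
noncomputable def psi : AddChar F ℂ := AddChar.FiniteField.primitiveChar_to_Complex F

theorem psi_prim : (psi : AddChar F ℂ).IsPrimitive := AddChar.FiniteField.primitiveChar_to_Complex_isPrimitive F

theorem psi_ne_one : (psi : AddChar F ℂ) ≠ 1 := fun h => psi_prim (F := F) one_ne_zero (by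
  rw [h]; ext a; simp [AddChar.mulShift_apply])

/-- The weights of the centre. -/
noncomputable def S : Setup F G V := ⟨ρ, D.z, D.z_add, psi, psi_prim⟩

/-- The average of the centre. -/
noncomputable def P₀ : Module.End ℂ V := (D.S ρ).P 0

theorem P₀_idem : D.P₀ ρ * D.P₀ ρ = D.P₀ ρ := by
  classical
  rw [P₀, (D.S ρ).P_mul_P, if_pos rfl]

theorem z_P₀ (w : F) : ρ (D.z w) * D.P₀ ρ = D.P₀ ρ := by
  rw [P₀, show ρ (D.z w) = (D.S ρ).ρ ((D.S ρ).z w) from rfl, (D.S ρ).z_mul_P, zero_mul,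
    AddChar.map_zero_eq_one, one_smul]

theorem P₀_comm {g : G} (hg : ∀ v, g * D.z v = D.z v * g) : ρ g * D.P₀ ρ = D.P₀ ρ * ρ g :=
  (D.S ρ).commute_P (x := g) hg 0

theorem P₀_norm {h : G} {a : F} (ha : a ≠ 0) (hh : ∀ v, h * D.z v = D.z (a * v) * h) :
    ρ h * D.P₀ ρ = D.P₀ ρ * ρ h := by
  have e := (D.S ρ).conj_P (h := h) ha hh 0
  rw [zero_div] at e
  exact e

/-- An element of the section, cut by the average. -/
noncomputable def σ (g : G) : Module.End ℂ V := ρ g * D.P₀ ρ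

theorem σ_mul {g g' : G} (hg' : ∀ v, g' * D.z v = D.z v * g') : D.σ ρ g * D.σ ρ g' = D.σ ρ (g * g') := by
  rw [σ, σ, σ, map_mul, mul_assoc (ρ g), ← mul_assoc (D.P₀ ρ), ← D.P₀_comm ρ hg', mul_assoc (ρ g'), P₀_idem,
    mul_assoc]

theorem σ_z (g : G) (w : F) : D.σ ρ (g * D.z w) = D.σ ρ g := by
  rw [σ, σ, map_mul, mul_assoc, z_P₀]

/-- The space of parameters. -/
abbrev M (F : Type v) (K : Type w) : Type (max v w) := F × K × K × F

/-- The representing element. -/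
def el (m : M F K) : G := D.xb m.1 * D.xc m.2.1 * D.xd m.2.2.1 * D.xe m.2.2.2

theorem el_z (m : M F K) (v : F) : D.el m * D.z v = D.z v * D.el m := by
  simp only [el, mul_assoc, D.ze]
  rw [← mul_assoc (D.xd _) (D.z v), D.zd, mul_assoc, ← mul_assoc (D.xc _) (D.z v), D.zc, mul_assoc,
    ← mul_assoc (D.xb _) (D.z v), D.zb, mul_assoc]

theorem σ_el (m : M F K) :
    D.σ ρ (D.el m) = D.σ ρ (D.xb m.1) * D.σ ρ (D.xc m.2.1) * D.σ ρ (D.xd m.2.2.1) * D.σ ρ (D.xe m.2.2.2) := by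
  rw [el, ← D.σ_mul ρ (fun v => D.ze v _), ← D.σ_mul ρ (fun v => D.zd v _), ← D.σ_mul ρ (fun v => D.zc v _)]

theorem σ_add (m n : M F K) : D.σ ρ (D.el (m + n)) = D.σ ρ (D.el m) * D.σ ρ (D.el n) := by
  obtain ⟨a, b, c, d⟩ := m
  obtain ⟨a', b', c', d'⟩ := n
  simp only [σ_el, Prod.fst_add, Prod.snd_add, Prod.mk_add_mk, D.xb_add, D.xc_add, D.xd_add, D.xe_add]
  rw [← D.σ_mul ρ (fun v => D.zb v _), ← D.σ_mul ρ (fun v => D.zc v _), ← D.σ_mul ρ (fun v => D.zd v _),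
    ← D.σ_mul ρ (fun v => D.ze v _)]
  have cbc : ∀ x y, Commute (D.σ ρ (D.xb x)) (D.σ ρ (D.xc y)) := fun x y => by
    rw [Commute, SemiconjBy, D.σ_mul ρ (fun v => D.zc v _), D.σ_mul ρ (fun v => D.zb v _), D.bc]
  have cbd : ∀ x y, Commute (D.σ ρ (D.xb x)) (D.σ ρ (D.xd y)) := fun x y => by
    rw [Commute, SemiconjBy, D.σ_mul ρ (fun v => D.zd v _), D.σ_mul ρ (fun v => D.zb v _), D.bd]
  have cbe : ∀ x y, Commute (D.σ ρ (D.xb x)) (D.σ ρ (D.xe y)) := fun x y => by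
    rw [Commute, SemiconjBy, D.σ_mul ρ (fun v => D.ze v _), D.σ_mul ρ (fun v => D.zb v _), D.be, σ_z]
  have ccd : ∀ x y, Commute (D.σ ρ (D.xc x)) (D.σ ρ (D.xd y)) := fun x y => by
    rw [Commute, SemiconjBy, D.σ_mul ρ (fun v => D.zd v _), D.σ_mul ρ (fun v => D.zc v _), D.cd, σ_z]
  have cce : ∀ x y, Commute (D.σ ρ (D.xc x)) (D.σ ρ (D.xe y)) := fun x y => by
    rw [Commute, SemiconjBy, D.σ_mul ρ (fun v => D.ze v _), D.σ_mul ρ (fun v => D.zc v _), D.ce]
  have cde : ∀ x y, Commute (D.σ ρ (D.xd x)) (D.σ ρ (D.xe y)) := fun x y => by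
    rw [Commute, SemiconjBy, D.σ_mul ρ (fun v => D.ze v _), D.σ_mul ρ (fun v => D.zd v _), D.de]
  simp only [mul_assoc]
  congr 1
  rw [← (cbe a' d).left_comm]
  rw [← (cbd a' c).left_comm]
  rw [← (cbc a' b).left_comm]
  congr 2
  rw [← (cce b' d).left_comm, ← (ccd b' c).left_comm]
  congr 2
  rw [← (cde c' d).left_comm]

/-- The pairing. -/
def pairing : M F K →+ M F K →+ F :=
  AddMonoidHom.mk' (fun p => AddMonoidHom.mk'
      (fun m => p.1 * m.1 + D.tr (p.2.1 * m.2.1) + D.tr (p.2.2.1 * m.2.2.1) + p.2.2.2 * m.2.2.2)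
      (fun m n => by simp only [Prod.fst_add, Prod.snd_add, mul_add, map_add]; ring))
    (fun p p' => by
      ext m
      simp only [AddMonoidHom.mk'_apply, AddMonoidHom.add_apply, Prod.fst_add, Prod.snd_add, add_mul, map_add]
      ring)

theorem pairing_apply (p m : M F K) : D.pairing p m =
    p.1 * m.1 + D.tr (p.2.1 * m.2.1) + D.tr (p.2.2.1 * m.2.2.1) + p.2.2.2 * m.2.2.2 := rfl

theorem pairing_surj {p : M F K} (hp : p ≠ 0) (a : F) : ∃ m, D.pairing p m = a := by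
  obtain ⟨p1, p2, p3, p4⟩ := p
  by_cases h1 : p1 = 0
  · by_cases h2 : p2 = 0
    · by_cases h3 : p3 = 0
      · have h4 : p4 ≠ 0 := fun h4 => hp (by rw [h1, h2, h3, h4]; rfl)
        exact ⟨(0, 0, 0, a / p4), by simp [pairing_apply, mul_div_cancel₀ _ h4]⟩
      · obtain ⟨d, hd⟩ := D.tr_surj p3 h3 a
        exact ⟨(0, 0, d, 0), by simp [pairing_apply, hd]⟩
    · obtain ⟨d, hd⟩ := D.tr_surj p2 h2 a
      exact ⟨(0, d, 0, 0), by simp [pairing_apply, hd]⟩
  · exact ⟨(a / p1, 0, 0, 0), by simp [pairing_apply, mul_div_cancel₀ _ h1]⟩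

/-- The weights of the section. -/
noncomputable def W : Wts (M F K) F V where
  τ m := D.σ ρ (D.el m)
  τ_add := D.σ_add ρ
  pair := D.pairing
  nondeg p hp := by
    obtain ⟨m, hm⟩ := D.pairing_surj hp 1
    exact ⟨m, by rw [hm]; exact one_ne_zero⟩
  symm p m := by simp only [pairing_apply, mul_comm p.1, mul_comm p.2.1, mul_comm p.2.2.1, mul_comm p.2.2.2]
  smul_surj p m a := by
    by_cases hp : p = 0
    · exact ⟨0, by rw [hp]; simp⟩
    · exact D.pairing_surj hp _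
  ψ := psi
  hψ := psi_ne_one

theorem el_zero : D.el 0 = 1 := by simp [el, xb_zero, xc_zero, xd_zero, xe_zero]

theorem τ_zero : (D.W ρ).τ 0 = D.P₀ ρ := by
  show D.σ ρ (D.el 0) = _
  rw [el_zero, σ, map_one, one_mul]

/-- Conjugation by a normalising element moves a weight to another one. -/
theorem transport {p : M F K} (hp : (D.W ρ).mult p ≠ 0) (g : G) (hg : ρ g * D.P₀ ρ = D.P₀ ρ * ρ g) :
    ∃ p', (D.W ρ).mult p' ≠ 0 ∧ ∀ (n n' : M F K) (t : F), D.el n * g = g * (D.el n' * D.z t) →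
      (psi : AddChar F ℂ) (D.pairing p' n) = psi (D.pairing p n') := by
  obtain ⟨p', h', hp'⟩ := (D.W ρ).exists_transport hp (ρ g) (ρ g⁻¹) (by rw [← map_mul, mul_inv_cancel, map_one])
    (by rw [← map_mul, inv_mul_cancel, map_one]) (by rw [τ_zero, hg])
  refine ⟨p', h', fun n n' t e => hp' n _ ?_⟩
  have e' : ρ g⁻¹ * (D.W ρ).τ n * ρ g = (D.W ρ).τ n' := by
    show ρ g⁻¹ * (ρ (D.el n) * D.P₀ ρ) * ρ g = D.σ ρ (D.el n')
    rw [mul_assoc, mul_assoc, ← hg, ← mul_assoc (ρ (D.el n)), ← map_mul, e, ← mul_assoc (ρ g⁻¹), ← map_mul,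
      ← mul_assoc, inv_mul_cancel, one_mul, ← σ_z D ρ (D.el n') t]
    rfl
  rw [e']
  exact (D.W ρ).τ_mul_R p n'

theorem psi_eq {a a' : F} (h : ∀ v : F, (psi : AddChar F ℂ) (a * v) = psi (a' * v)) : a = a' := by
  by_contra hne
  refine psi_prim (F := F) (sub_ne_zero.2 hne) (AddChar.ext _ _ fun v => ?_)
  rw [AddChar.mulShift_apply, AddChar.one_apply, sub_mul, AddChar.map_sub_eq_div, h, div_self]
  intro h0
  have h1 := AddChar.map_add_eq_mul (psi : AddChar F ℂ) (a' * v) (-(a' * v))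
  rw [h0, zero_mul, add_neg_cancel, AddChar.map_zero_eq_one] at h1
  exact one_ne_zero h1

theorem psi_tr_eq {a a' : K} (h : ∀ v : K, (psi : AddChar F ℂ) (D.tr (a * v)) = psi (D.tr (a' * v))) : a = a' := by
  by_contra hne
  refine psi_ne_one (F := F) (AddChar.ext _ _ fun x => ?_)
  obtain ⟨d, hd⟩ := D.tr_surj _ (sub_ne_zero.2 hne) x
  rw [← hd, sub_mul, map_sub, AddChar.map_sub_eq_div, h, AddChar.one_apply, div_self]
  intro h0
  have h1 := AddChar.map_add_eq_mul (psi : AddChar F ℂ) (D.tr (a' * d)) (-(D.tr (a' * d)))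
  rw [h0, zero_mul, add_neg_cancel, AddChar.map_zero_eq_one] at h1
  exact one_ne_zero h1

/-- The scalar multiple of a weight. -/
def sm (l : F) (p : M F K) : M F K := (l * p.1, D.sc l * p.2.1, D.sc l * p.2.2.1, l * p.2.2.2)

theorem mult_sm {p : M F K} (hp : (D.W ρ).mult p ≠ 0) {l : F} (hl : l ≠ 0) : (D.W ρ).mult (D.sm l p) ≠ 0 := by
  obtain ⟨h, m, hm, hz, hb, hc, hd, he⟩ := D.scal l hl
  have hzi : ∀ v, h⁻¹ * D.z v = D.z (m⁻¹ * v) * h⁻¹ := fun v => by
    rw [inv_mul_eq_iff_eq_mul, ← mul_assoc, hz, ← mul_assoc m, mul_inv_cancel₀ hm, one_mul, mul_inv_cancel_right]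
  obtain ⟨p', h', hp'⟩ := D.transport ρ hp h⁻¹ (D.P₀_norm ρ (inv_ne_zero hm) hzi)
  suffices e : p' = D.sm l p by rw [← e]; exact h'
  refine (D.W ρ).eq_of_χ fun n => ?_
  have key : D.el n * h⁻¹ = h⁻¹ * (D.el (l * n.1, D.sc l * n.2.1, D.sc l * n.2.2.1, l * n.2.2.2) * D.z 0) := by
    rw [show D.z 0 = 1 from (D.S ρ).z_zero, mul_one, eq_inv_mul_iff_mul_eq, ← mul_assoc, mul_inv_eq_iff_eq_mul]
    simp only [el, mul_assoc]
    rw [← mul_assoc h, hb, mul_assoc, ← mul_assoc h, hc, mul_assoc, ← mul_assoc h, hd, mul_assoc, he]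
  have := hp' n _ _ key
  show psi (D.pairing p' n) = psi (D.pairing (D.sm l p) n)
  rw [this]
  congr 1
  simp only [pairing_apply, sm]
  rw [← mul_assoc p.2.1, ← mul_assoc p.2.2.1, mul_comm p.2.1 (D.sc l), mul_comm p.2.2.1 (D.sc l)]
  ring

/-- A weight of `Q/Z` with the fourth coordinate non-zero can be moved along the third one. -/
theorem exists_shift {p : M F K} (hp : (D.W ρ).mult p ≠ 0) (hp4 : p.2.2.2 ≠ 0) (x : K) :
    ∃ p', (D.W ρ).mult p' ≠ 0 ∧ p'.2.2.2 = p.2.2.2 ∧ p'.2.2.1 = x := by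
  obtain ⟨g, hgz, hge, hgd⟩ := D.shift ((D.sc p.2.2.2)⁻¹ * (x - p.2.2.1))
  obtain ⟨p', h', hp'⟩ := D.transport ρ hp g (D.P₀_comm ρ hgz)
  refine ⟨p', h', psi_eq fun v => ?_, D.psi_tr_eq fun d => ?_⟩
  · have := hp' (0, 0, 0, v) (0, 0, 0, v) 0 (by
      rw [show D.z 0 = 1 from (D.S ρ).z_zero, mul_one]
      simp only [el, xb_zero, xc_zero, xd_zero, one_mul, hge])
    simpa [pairing_apply] using this
  · have := hp' (0, 0, d, 0) (0, 0, d, D.tr ((D.sc p.2.2.2)⁻¹ * (x - p.2.2.1) * d)) 0 (by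
      rw [show D.z 0 = 1 from (D.S ρ).z_zero, mul_one]
      simp only [el, xb_zero, xc_zero, xe_zero, one_mul, mul_one, hgd])
    simp only [pairing_apply, mul_zero, map_zero, add_zero, zero_add] at this
    rw [this, ← D.tr_sc, ← map_add]
    congr 2
    have : D.sc p.2.2.2 ≠ 0 := (map_ne_zero D.sc).2 hp4
    field_simp
    ring

section Count

variable (hinj : Function.Injective ρ) (hz1 : D.z 1 ≠ 1)

theorem e_eq {c : F} (hc : c ≠ 0) : (D.S ρ).e c = (D.S ρ).e 1 := by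
  obtain ⟨h, hh⟩ := D.ztrans c⁻¹ (inv_ne_zero hc)
  have := (D.S ρ).e_div (h := h) (inv_ne_zero hc) hh 1
  rwa [one_div, inv_inv] at this

include hinj hz1 in
theorem e_one_ne : (D.S ρ).e 1 ≠ 0 := by
  classical
  intro h0
  have hP : D.P₀ ρ = 1 := by
    rw [P₀, ← (D.S ρ).sum_P,
      Finset.sum_eq_single 0 (fun c _ hc => (D.S ρ).P_eq_zero ((D.e_eq ρ hc).trans h0)) (by simp)]
  have h1 := D.z_P₀ ρ 1
  rw [hP, mul_one] at h1
  exact hz1 (hinj (h1.trans (map_one ρ).symm))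

theorem trace_el {m : M F K} (hm : m ≠ 0) (t : F) {c : F} (hc : c ≠ 0) :
    trace ℂ V (ρ (D.el m * D.z t) * (D.S ρ).P c) = 0 := by
  suffices h0 : trace ℂ V (ρ (D.el m) * (D.S ρ).P c) = 0 by
    rw [map_mul ρ, mul_assoc, show ρ (D.z t) = (D.S ρ).ρ ((D.S ρ).z t) from rfl, (D.S ρ).z_mul_P, mul_smul_comm,
      map_smul, h0, smul_zero]
  have hex : ∀ d : F, d ≠ 0 → ∃ b, (psi : AddChar F ℂ) (c * (b * d)) ≠ 1 := by
    intro d hd
    by_contra hall
    push Not at hall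
    refine psi_prim (F := F) (mul_ne_zero hc hd) (AddChar.ext _ _ fun b => ?_)
    rw [AddChar.mulShift_apply, AddChar.one_apply, show c * d * b = c * (b * d) by ring]
    exact hall b
  have hexK : ∀ d : K, d ≠ 0 → ∃ b, (psi : AddChar F ℂ) (c * D.tr (d * b)) ≠ 1 := by
    intro d hd
    obtain ⟨b, hb⟩ := hex 1 one_ne_zero
    obtain ⟨b', hb'⟩ := D.tr_surj d hd (b * 1)
    exact ⟨b', by rw [hb']; exact hb⟩
  have he : ∀ x, D.z x * D.z (-x) = 1 := fun x => by
    rw [← D.z_add, add_neg_cancel]; exact (D.S ρ).z_zero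
  obtain ⟨a, b, d, e⟩ := m
  have mv : ∀ (g : G) (w : F), (∀ v, g * D.z v = D.z v * g) → ∀ A : G, D.z w * (g * A) = g * (D.z w * A) :=
    fun g w hg A => by rw [← mul_assoc, ← hg, mul_assoc]
  by_cases ha : a = 0
  · subst ha
    by_cases hb : b = 0
    · subst hb
      by_cases hd : d = 0
      · subst hd
        have he' : e ≠ 0 := fun h => hm (by rw [h]; rfl)
        obtain ⟨v, hv⟩ := hex (-e) (neg_ne_zero.2 he')
        refine (D.S ρ).trace_eq_zero (x := D.el (0, 0, 0, e)) (y := D.xb v) (w := v * -e) (D.el_z _) (fun u => D.zb u v) ?_ hv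
        show D.el (0, 0, 0, e) * D.xb v = D.xb v * D.el (0, 0, 0, e) * D.z (v * -e)
        simp only [el, xb_zero, xc_zero, xd_zero, one_mul, D.be, mul_neg]
      · obtain ⟨v, hv⟩ := hexK d hd
        refine (D.S ρ).trace_eq_zero (x := D.el (0, 0, d, e)) (y := D.xc v) (w := D.tr (d * v)) (D.el_z _) (fun u => D.zc u v) ?_ hv
        show D.el (0, 0, d, e) * D.xc v = D.xc v * D.el (0, 0, d, e) * D.z (D.tr (d * v))
        simp only [el, xb_zero, xc_zero, one_mul]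
        rw [mul_assoc, D.ce, ← mul_assoc, D.cd, mul_comm v d]
        simp only [mul_assoc]
        rw [D.ze]
    · obtain ⟨v, hv⟩ := hexK (-b) (neg_ne_zero.2 hb)
      refine (D.S ρ).trace_eq_zero (x := D.el (0, b, d, e)) (y := D.xd v) (w := D.tr (-b * v)) (D.el_z _) (fun u => D.zd u v) ?_ hv
      show D.el (0, b, d, e) * D.xd v = D.xd v * D.el (0, b, d, e) * D.z (D.tr (-b * v))
      have hcd : D.xc b * D.xd v = D.xd v * (D.xc b * D.z (D.tr (-b * v))) := by
        rw [← mul_assoc, D.cd, neg_mul, map_neg, mul_assoc, he, mul_one]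
      simp only [el, xb_zero, one_mul]
      rw [mul_assoc, D.de, ← mul_assoc, mul_assoc (D.xc b), ← D.xd_add, add_comm, D.xd_add, ← mul_assoc, hcd]
      simp only [mul_assoc]
      rw [mv (D.xd d) _ (fun u => D.zd u d), ← D.ze]
  · obtain ⟨v, hv⟩ := hex a ha
    refine (D.S ρ).trace_eq_zero (x := D.el (a, b, d, e)) (y := D.xe v) (w := v * a) (D.el_z _) (fun u => D.ze u v) ?_ hv
    show D.el (a, b, d, e) * D.xe v = D.xe v * D.el (a, b, d, e) * D.z (v * a)
    have hab : D.xb a * D.xe v = D.xe v * (D.xb a * D.z (v * a)) := by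
      rw [← mul_assoc, D.be, mul_assoc, mul_comm v a, ← D.z_add, neg_add_cancel, show D.z 0 = 1 from (D.S ρ).z_zero, mul_one]
    simp only [el, mul_assoc]
    rw [← D.xe_add, add_comm, D.xe_add, ← mul_assoc (D.xd d), ← D.de, mul_assoc, ← mul_assoc (D.xc b), ← D.ce,
      mul_assoc, ← mul_assoc (D.xb a), hab]
    simp only [mul_assoc]
    rw [mv (D.xc b) _ (fun u => D.zc u b), mv (D.xd d) _ (fun u => D.zd u d), ← D.ze]

include hinj hz1 in
theorem e_one_sq : Fintype.card (M F K) ≤ (D.S ρ).e 1 * (D.S ρ).e 1 := by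
  classical
  have he1 := D.e_one_ne ρ hinj hz1
  refine (D.S ρ).card_le_sq (ι := M F K) D.el 1 (fun i v => D.el_z i v) fun p => ⟨(D.el p)⁻¹, ?_, fun j hj => ?_⟩
  · show trace ℂ V (ρ ((D.el p)⁻¹ * D.el p) * (D.S ρ).P 1) ≠ 0
    rw [inv_mul_cancel, map_one, one_mul, (D.S ρ).trace_P]
    exact Nat.cast_ne_zero.2 he1
  · obtain ⟨t, ht⟩ : ∃ t, D.el p * D.el (j - p) = D.el j * D.z t := by
      obtain ⟨a, b, c, d⟩ := p
      obtain ⟨a', b', c', d'⟩ := j
      refine ⟨-((a' - a) * d) + D.tr ((b' - b) * c), ?_⟩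
      simp only [el, Prod.mk_sub_mk]
      rw [D.z_add]
      conv_rhs => rw [show a' = a + (a' - a) by ring, show b' = b + (b' - b) by ring,
        show c' = c + (c' - c) by ring, show d' = d + (d' - d) by ring, D.xb_add, D.xc_add, D.xd_add, D.xe_add]
      simp only [add_sub_cancel_left]
      have mv : ∀ (g : G) (w : F), (∀ v, g * D.z v = D.z v * g) → ∀ A : G, D.z w * (g * A) = g * (D.z w * A) :=
        fun g w hg A => by rw [← mul_assoc, ← hg, mul_assoc]
      have c1 : ∀ A : G, D.xe d * (D.xb (a' - a) * A) = D.xb (a' - a) * (D.xe d * (D.z (-((a' - a) * d)) * A)) :=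
        fun A => by rw [← mul_assoc, D.be]; simp only [mul_assoc]
      have c2 : ∀ A : G, D.xd c * (D.xb (a' - a) * A) = D.xb (a' - a) * (D.xd c * A) :=
        fun A => by rw [← mul_assoc, D.bd]; simp only [mul_assoc]
      have c3 : ∀ A : G, D.xc b * (D.xb (a' - a) * A) = D.xb (a' - a) * (D.xc b * A) :=
        fun A => by rw [← mul_assoc, D.bc]; simp only [mul_assoc]
      have c4 : ∀ A : G, D.xe d * (D.xc (b' - b) * A) = D.xc (b' - b) * (D.xe d * A) :=
        fun A => by rw [← mul_assoc, D.ce]; simp only [mul_assoc]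
      have c5 : ∀ A : G, D.xd c * (D.xc (b' - b) * A) = D.xc (b' - b) * (D.xd c * (D.z (D.tr ((b' - b) * c)) * A)) :=
        fun A => by rw [← mul_assoc, D.cd]; simp only [mul_assoc]
      have c6 : ∀ A : G, D.xe d * (D.xd (c' - c) * A) = D.xd (c' - c) * (D.xe d * A) :=
        fun A => by rw [← mul_assoc, D.de]; simp only [mul_assoc]
      have mb : ∀ (w : F) (A : G), D.z w * (D.xb (a' - a) * A) = D.xb (a' - a) * (D.z w * A) :=
        fun w => mv _ w (fun v => D.zb v _)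
      have mzc : ∀ (u : K) (w : F) (A : G), D.z w * (D.xc u * A) = D.xc u * (D.z w * A) :=
        fun u w => mv _ w (fun v => D.zc v u)
      have mzd : ∀ (u : K) (w : F) (A : G), D.z w * (D.xd u * A) = D.xd u * (D.z w * A) :=
        fun u w => mv _ w (fun v => D.zd v u)
      have mze : ∀ (u w : F) (A : G), D.z w * (D.xe u * A) = D.xe u * (D.z w * A) :=
        fun u w => mv _ w (fun v => D.ze v u)
      have mze' : ∀ (u w : F), D.z w * D.xe u = D.xe u * D.z w := fun u w => (D.ze w u).symm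
      simp only [mul_assoc, c1, c2, c3, c4, c5, c6, mb, mzc, mzd, mze, mze', ← D.z_add]
      rw [add_comm (-((a' - a) * d))]
    have ht' : (D.el p)⁻¹ * D.el j = D.el (j - p) * D.z (-t) := by
      rw [inv_mul_eq_iff_eq_mul, ← mul_assoc, ht, mul_assoc, ← D.z_add, add_neg_cancel]
      exact (by rw [show D.z 0 = 1 from (D.S ρ).z_zero, mul_one] : D.el j = D.el j * D.z 0)
    show trace ℂ V (ρ ((D.el p)⁻¹ * D.el j) * (D.S ρ).P 1) = 0
    rw [ht']
    exact D.trace_el ρ (sub_ne_zero.2 hj) _ one_ne_zero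

/-- The equation between the weights from a subgroup conjugate to the centre. -/
theorem weight_eq (x : F → G) (f : F →+ M F K) (hx : ∀ v, D.el (f v) = x v) (hxe : ∀ v, v ≠ 0 → f v ≠ 0)
    (w : G) (hw : ∀ v, w * D.z v = x v * w) (good : M F K → Prop) [DecidablePred good]
    (hgood : ∀ p, good p ↔ ∀ i, D.pairing p (f i) = 0)
    (hbad : ∀ p i, D.pairing p (f i) ≠ 0 → ∀ a : F, ∃ j, D.pairing p (f j) = a * D.pairing p (f i)) :
    Fintype.card F * (D.S ρ).e 0 = (Fintype.card F - 1) * (D.S ρ).e 1 +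
      Fintype.card F * ∑ p ∈ Finset.univ.filter good, (D.W ρ).mult p := by
  classical
  have hf := (D.W ρ).sum_R_subgroup f good hgood hbad
  have htr := (D.W ρ).sum_mult_eq_trace _ hf
  rw [map_smul, map_sum] at htr
  have h1 : ∀ v, trace ℂ V (ρ (x v)) = trace ℂ V (ρ (D.z v)) := fun v => by
    rw [show x v = w * D.z v * w⁻¹ by rw [hw, mul_inv_cancel_right], map_mul ρ, map_mul ρ, LinearMap.trace_mul_comm,
      ← mul_assoc, ← map_mul ρ, inv_mul_cancel, map_one, one_mul]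
  have h2 : ∑ v, trace ℂ V (ρ (D.z v)) = (Fintype.card F : ℂ) * ((D.S ρ).e 0 : ℂ) := by
    rw [← (D.S ρ).trace_P, Setup.P, map_smul, map_sum, smul_eq_mul, ← mul_assoc,
      mul_inv_cancel₀ (Nat.cast_ne_zero.2 Fintype.card_ne_zero), one_mul]
    refine Finset.sum_congr rfl fun v _ => ?_
    rw [zero_mul, neg_zero, AddChar.map_zero_eq_one, one_smul]
    rfl
  have h3 : ∀ v, trace ℂ V (ρ (x v)) = trace ℂ V ((D.W ρ).τ (f v)) +
      ∑ c ∈ (Finset.univ : Finset F).erase 0, trace ℂ V (ρ (x v) * (D.S ρ).P c) := by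
    intro v
    conv_lhs => rw [← mul_one (ρ (x v)), ← (D.S ρ).sum_P, Finset.mul_sum, map_sum,
      ← Finset.add_sum_erase _ _ (Finset.mem_univ (0 : F))]
    rw [← hx v]
    rfl
  have h4 : ∀ v, ∀ c ∈ (Finset.univ : Finset F).erase 0, trace ℂ V (ρ (x v) * (D.S ρ).P c) =
      if v = 0 then ((D.S ρ).e 1 : ℂ) else 0 := by
    intro v c hc
    split_ifs with hv
    · subst hv
      rw [← hx, map_zero, el_zero, map_one, one_mul, (D.S ρ).trace_P, D.e_eq ρ (Finset.ne_of_mem_erase hc)]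
    · have := D.trace_el ρ (hxe v hv) 0 (Finset.ne_of_mem_erase hc)
      rwa [show D.z 0 = 1 from (D.S ρ).z_zero, mul_one, hx] at this
  have e : ((Fintype.card F * (D.S ρ).e 0 : ℕ) : ℂ) = (((Fintype.card F - 1) * (D.S ρ).e 1 +
      Fintype.card F * ∑ p ∈ Finset.univ.filter good, (D.W ρ).mult p : ℕ) : ℂ) := by
    rw [Nat.cast_mul, ← h2, Finset.sum_congr rfl fun v _ => (h1 v).symm, Finset.sum_congr rfl fun v _ => h3 v,
      Finset.sum_add_distrib, Finset.sum_comm, Finset.sum_congr rfl fun c hc =>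
        (Finset.sum_congr rfl fun v _ => h4 v c hc).trans (Finset.sum_ite_eq' _ _ _),
      Nat.cast_add, Nat.cast_mul, Nat.cast_mul, ← htr, smul_eq_mul, ← mul_assoc,
      mul_inv_cancel₀ (Nat.cast_ne_zero.2 Fintype.card_ne_zero), one_mul, add_comm]
    congr 1
    rw [if_pos (Finset.mem_univ _), Finset.sum_const, Finset.card_erase_of_mem (Finset.mem_univ _), Finset.card_univ,
      nsmul_eq_mul]
  exact_mod_cast e

end Count

end Data

end CfsgLib.Chev.D4Degree
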