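import Cfsg.Agent.Chev.D4Degree.Abstract

/-!
# The bound for the degree
-/

set_option autoImplicit false
set_option linter.unusedSectionVars false
set_option linter.unusedSimpArgs false

namespace CfsgLib.Chev.D4Degree

open LinearMap CfsgLib.Chev.ReeDegree

universe u v w x

namespace Data

variable {G : Type u} [Group G] {F : Type v} [Field F] [Fintype F] {K : Type w} [Field K] [Fintype K]
  (D : Data G F K) {V : Type x} [AddCommGroup V] [Module ℂ V] [FiniteDimensional ℂ V]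
  (ρ : G →* Module.End ℂ V)

/-- The inclusion of the first layer. -/
def fB : F →+ M F K := AddMonoidHom.inl F (K × K × F)

/-- The inclusion of the last layer. -/
def fE : F →+ M F K :=
  AddMonoidHom.mk' (fun v => (0, 0, 0, v)) (fun a b => by simp)

theorem fB_apply (v : F) : fB (K := K) v = (v, 0, 0, 0) := rfl

theorem pair_fB (p : M F K) (v : F) : D.pairing p (fB v) = p.1 * v := by
  simp [pairing_apply, fB_apply]

theorem pair_fE (p : M F K) (v : F) : D.pairing p (fE v) = p.2.2.2 * v := by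
  simp [pairing_apply, fE]

theorem sm_inj {p : M F K} (hp : p ≠ 0) {l l' : F} (h : D.sm l p = D.sm l' p) : l = l' := by
  obtain ⟨p1, p2, p3, p4⟩ := p
  simp only [sm, Prod.mk.injEq] at h
  obtain ⟨h1, h2, h3, h4⟩ := h
  by_cases e1 : p1 = 0
  · by_cases e2 : p2 = 0
    · by_cases e3 : p3 = 0
      · have e4 : p4 ≠ 0 := fun e4 => hp (by rw [e1, e2, e3, e4]; rfl)
        exact mul_right_cancel₀ e4 h4
      · exact D.sc.injective (mul_right_cancel₀ e3 h3)
    · exact D.sc.injective (mul_right_cancel₀ e2 h2)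
  · exact mul_right_cancel₀ e1 h1

theorem finrank_eq : Module.finrank ℂ V = (D.S ρ).e 0 + (Fintype.card F - 1) * (D.S ρ).e 1 := by
  classical
  rw [← (D.S ρ).sum_e, ← Finset.add_sum_erase _ _ (Finset.mem_univ (0 : F)),
    Finset.sum_congr rfl fun c hc => D.e_eq ρ (Finset.ne_of_mem_erase hc), Finset.sum_const,
    Finset.card_erase_of_mem (Finset.mem_univ _), Finset.card_univ, smul_eq_mul]

theorem e_zero_eq : (D.S ρ).e 0 = ∑ p, (D.W ρ).mult p := by
  classical
  have h := (D.W ρ).sum_mult_eq_trace Finset.univ (D.W ρ).sum_R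
  rw [τ_zero, P₀, (D.S ρ).trace_P] at h
  exact_mod_cast h

variable {q : ℕ} (hF : Fintype.card F = q) (hKc : Fintype.card K = q ^ 3) (hinj : Function.Injective ρ)
  (hz1 : D.z 1 ≠ 1)

include hF hKc hinj hz1 in
theorem q4_le : q ^ 4 ≤ (D.S ρ).e 1 := by
  have h := D.e_one_sq ρ hinj hz1
  simp only [Data.M, Fintype.card_prod, hF, hKc] at h
  exact Nat.mul_self_le_mul_self_iff.1 (le_trans (le_of_eq (by ring)) h)

include hF hKc hinj hz1 in
theorem degree_bound : q ^ 5 + q ≤ Module.finrank ℂ V + q ^ 3 + 1 := by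
  classical
  set e0 := (D.S ρ).e 0 with he0
  set e1 := (D.S ρ).e 1 with he1
  set mu := (D.W ρ).mult with hmu
  have hq2 : 2 ≤ q := hF ▸ Fintype.one_lt_card
  have hge : q ^ 4 ≤ e1 := D.q4_le ρ hF hKc hinj hz1
  obtain ⟨wE, hwE⟩ := D.toE
  obtain ⟨wB, hwB⟩ := D.toB
  have hE := D.weight_eq ρ D.xe fE (fun v => by simp [el, fE, xb_zero, xc_zero, xd_zero])
    (fun v hv h => hv (congrArg (fun p : M F K => p.2.2.2) h)) wE hwE (fun p => p.2.2.2 = 0)
    (fun p => by
      simp only [pair_fE]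
      exact ⟨fun h i => by rw [h, zero_mul], fun h => by simpa using h 1⟩)
    (fun p i hi a => ⟨a * i, by simp only [pair_fE]; ring⟩)
  have hB := D.weight_eq ρ (fun v => D.xb (-v)) (-fB) (fun v => by simp [el, fB_apply, xc_zero, xd_zero, xe_zero])
    (fun v hv h => hv (by simpa [fB_apply] using congrArg (fun p : M F K => p.1) h)) wB hwB (fun p => p.1 = 0)
    (fun p => by
      simp only [AddMonoidHom.neg_apply, map_neg, pair_fB]
      exact ⟨fun h i => by rw [h, zero_mul, neg_zero], fun h => by simpa using h 1⟩)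
    (fun p i hi a => ⟨a * i, by simp only [AddMonoidHom.neg_apply, map_neg, pair_fB]; ring⟩)
  rw [hF, ← he0, ← he1, ← hmu] at hE hB
  set f := ∑ p ∈ Finset.univ.filter (fun p : M F K => p.2.2.2 = 0), mu p with hf
  have hfb : ∑ p ∈ Finset.univ.filter (fun p : M F K => p.1 = 0), mu p = f :=
    Nat.eq_of_mul_eq_mul_left (by omega : 0 < q) (by omega)
  have hdim := D.finrank_eq ρ
  rw [hF, ← he0, ← he1] at hdim
  rw [hdim]
  suffices hgoal : q - 1 ≤ f ∨ q ^ 4 < e1 by
    zify [show 1 ≤ q by omega] at hE hgoal hge ⊢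
    have p1 := mul_le_mul_of_nonneg_left hge (show (0 : ℤ) ≤ (q : ℤ) - 1 by omega)
    rcases hgoal with h | h
    · have p2 := mul_le_mul_of_nonneg_left h (show (0 : ℤ) ≤ (q : ℤ) by omega)
      refine le_of_mul_le_mul_left ?_ (show (0 : ℤ) < (q : ℤ) by omega)
      nlinarith
    · have h' : (q : ℤ) ^ 4 + 1 ≤ e1 := h
      have hstrict : (q : ℤ) ^ 4 - q ^ 3 + 1 ≤ e0 := by
        by_contra hc
        push Not at hc
        have p2 := mul_le_mul_of_nonneg_left (Int.lt_iff_add_one_le.1 hc) (show (0 : ℤ) ≤ (q : ℤ) by omega)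
        have p3 := mul_le_mul_of_nonneg_left h' (show (0 : ℤ) ≤ (q : ℤ) - 1 by omega)
        nlinarith [Int.natCast_nonneg f]
      have p3 := mul_le_mul_of_nonneg_left h' (show (0 : ℤ) ≤ (q : ℤ) - 1 by omega)
      nlinarith
  by_contra hcon
  push Not at hcon
  obtain ⟨hflt, he1le⟩ := hcon
  have he1eq : e1 = q ^ 4 := by omega
  -- no non-trivial weight vanishes on the first or on the last layer
  have key : ∀ (P : M F K → Prop) [DecidablePred P], (∀ l p, P p → P (D.sm l p)) →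
      (∑ p ∈ Finset.univ.filter P, mu p) = f → ∀ p, p ≠ 0 → mu p ≠ 0 → ¬ P p := by
    intro P _ hP hsum p hp hmp hPp
    have hcard : ((Finset.univ : Finset F).erase 0).card ≤ (Finset.univ.filter fun p => P p ∧ mu p ≠ 0).card := by
      refine Finset.card_le_card_of_injOn (fun l => D.sm l p) (fun l hl => ?_) (fun l _ l' _ h => D.sm_inj hp h)
      simp only [Finset.coe_filter, Finset.mem_univ, true_and, Set.mem_setOf_eq]
      exact ⟨hP l p hPp, D.mult_sm ρ hmp (Finset.ne_of_mem_erase hl)⟩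
    rw [Finset.card_erase_of_mem (Finset.mem_univ _), Finset.card_univ, hF, Finset.card_eq_sum_ones] at hcard
    have h2 : (∑ p ∈ Finset.univ.filter fun p => P p ∧ mu p ≠ 0, 1) ≤ ∑ p ∈ Finset.univ.filter P, mu p :=
      le_trans (Finset.sum_le_sum fun p hp => Nat.one_le_iff_ne_zero.2 (Finset.mem_filter.1 hp).2.2)
        (Finset.sum_le_sum_of_subset fun p hp => Finset.mem_filter.2 ⟨Finset.mem_univ _, (Finset.mem_filter.1 hp).2.1⟩)
    omega
  have noE : ∀ p, p ≠ 0 → mu p ≠ 0 → p.2.2.2 ≠ 0 :=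
    key (fun p => p.2.2.2 = 0) (fun l p h => by simp [sm, h]) rfl
  have noB : ∀ p, p ≠ 0 → mu p ≠ 0 → p.1 ≠ 0 :=
    key (fun p => p.1 = 0) (fun l p h => by simp [sm, h]) hfb
  -- the weights with non-zero last coordinate
  set T := Finset.univ.filter fun p : M F K => p.2.2.2 ≠ 0 ∧ mu p ≠ 0 with hT
  set U := ((Finset.univ : Finset F).erase 0) ×ˢ (Finset.univ : Finset K) with hU
  have hUcard : U.card = (q - 1) * q ^ 3 := by
    rw [hU, Finset.card_product, Finset.card_erase_of_mem (Finset.mem_univ _), Finset.card_univ, Finset.card_univ, hF, hKc]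
  have htot : e0 = f + ∑ p ∈ Finset.univ.filter (fun p : M F K => ¬ p.2.2.2 = 0), mu p := by
    rw [he0, D.e_zero_eq ρ, hf, Finset.sum_filter_add_sum_filter_not]
  have hTsum : ∑ p ∈ T, mu p = ∑ p ∈ Finset.univ.filter (fun p : M F K => ¬ p.2.2.2 = 0), mu p := by
    refine Finset.sum_subset (fun p hp => ?_) (fun p hp hp' => ?_)
    · simp only [hT, Finset.mem_filter] at hp
      exact Finset.mem_filter.2 ⟨hp.1, hp.2.1⟩
    · simp only [hT, Finset.mem_filter, Finset.mem_univ, true_and, not_and, not_not] at hp hp'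
      exact hp' hp
  have hSum : ∑ p ∈ T, mu p = (q - 1) * q ^ 3 := by
    refine Nat.eq_of_mul_eq_mul_left (show 0 < q by omega) ?_
    rw [he1eq, htot, ← hTsum, mul_add] at hE
    have e : (q - 1) * q ^ 4 = q * ((q - 1) * q ^ 3) := by ring
    omega
  have hTcard : T.card ≤ U.card := by
    rw [hUcard, ← hSum, Finset.card_eq_sum_ones]
    exact Finset.sum_le_sum fun p hp => Nat.one_le_iff_ne_zero.2 (Finset.mem_filter.1 hp).2.2
  obtain ⟨p0, hp0T⟩ : T.Nonempty := by
    rw [Finset.nonempty_iff_ne_empty]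
    intro h
    rw [h, Finset.sum_empty] at hSum
    have : 0 < (q - 1) * q ^ 3 := Nat.mul_pos (by omega) (pow_pos (by omega) _)
    omega
  simp only [hT, Finset.mem_filter, Finset.mem_univ, true_and] at hp0T
  obtain ⟨hp0, hp0m⟩ := hp0T
  -- every pair of the last two coordinates occurs, hence only once
  have hsurj : ∀ u ∈ U, ∃ p ∈ T, (fun p : M F K => (p.2.2.2, p.2.2.1)) p = u := by
    rintro ⟨l, x⟩ hu
    simp only [hU, Finset.mem_product, Finset.mem_erase, Finset.mem_univ, and_true] at hu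
    have hl : l / p0.2.2.2 ≠ 0 := div_ne_zero hu hp0
    have h4 : (D.sm (l / p0.2.2.2) p0).2.2.2 = l := div_mul_cancel₀ l hp0
    obtain ⟨p', hp', e4, e3⟩ := D.exists_shift ρ (D.mult_sm ρ hp0m hl) (by rw [h4]; exact hu) x
    exact ⟨p', Finset.mem_filter.2 ⟨Finset.mem_univ _, by rw [e4, h4]; exact hu, hp'⟩, by simp only [e4, h4, e3]⟩
  have huniq : ∀ p ∈ T, ∀ p' ∈ T, p.2.2.2 = p'.2.2.2 → p.2.2.1 = p'.2.2.1 → p = p' := by
    intro p hp p' hp' h1 h2
    exact Finset.inj_on_of_surj_on_of_card_le (fun a _ => (a.2.2.2, a.2.2.1))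
      (fun a ha => by
        simp only [hU, Finset.mem_product, Finset.mem_erase, Finset.mem_univ, and_true]
        exact (Finset.mem_filter.1 ha).2.1)
      (fun b hb => by obtain ⟨a, ha, e⟩ := hsurj b hb; exact ⟨a, ha, e⟩) hTcard hp hp' (Prod.ext h1 h2)
  obtain ⟨p1, hp1T, hp1e⟩ := hsurj (1, 0) (by simp [hU])
  simp only [Prod.mk.injEq] at hp1e
  obtain ⟨hp14, hp13⟩ := hp1e
  have hp1m : mu p1 ≠ 0 := (Finset.mem_filter.1 hp1T).2.2
  have hp12 : p1.2.1 = 0 := by
    obtain ⟨h, m, κ, ν, hm, hκ, hz, hc, hd, he⟩ := D.twist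
    have hzi : ∀ v, h⁻¹ * D.z v = D.z (m⁻¹ * v) * h⁻¹ := fun v => by
      rw [inv_mul_eq_iff_eq_mul, ← mul_assoc, hz, ← mul_assoc m, mul_inv_cancel₀ hm, one_mul, mul_inv_cancel_right]
    obtain ⟨p', h', hp'⟩ := D.transport ρ hp1m h⁻¹ (D.P₀_norm ρ (inv_ne_zero hm) hzi)
    have hz0 : D.z 0 = 1 := (D.S ρ).z_zero
    have e4 : p'.2.2.2 = p1.2.2.2 := psi_eq fun v => by
      have := hp' (0, 0, 0, v) (0, 0, 0, v) 0 (by
        rw [hz0, mul_one, eq_inv_mul_iff_mul_eq, ← mul_assoc, mul_inv_eq_iff_eq_mul]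
        simp only [el, xb_zero, xc_zero, xd_zero, one_mul, he])
      simpa [pairing_apply] using this
    have e3 : p'.2.2.1 = p1.2.2.1 := D.psi_tr_eq fun d => by
      have := hp' (0, 0, d, 0) (0, 0, ν * d, 0) 0 (by
        rw [hz0, mul_one, eq_inv_mul_iff_mul_eq, ← mul_assoc, mul_inv_eq_iff_eq_mul]
        simp only [el, xb_zero, xc_zero, xe_zero, one_mul, mul_one, hd])
      simpa [pairing_apply, hp13] using this
    have e2 : p'.2.1 = p1.2.1 * κ := D.psi_tr_eq fun d => by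
      have := hp' (0, d, 0, 0) (0, κ * d, 0, 0) 0 (by
        rw [hz0, mul_one, eq_inv_mul_iff_mul_eq, ← mul_assoc, mul_inv_eq_iff_eq_mul]
        simp only [el, xb_zero, xd_zero, xe_zero, one_mul, mul_one, hc])
      simpa [pairing_apply, mul_assoc] using this
    have hpT : p' ∈ T := Finset.mem_filter.2 ⟨Finset.mem_univ _, by rw [e4, hp14]; exact one_ne_zero, h'⟩
    rw [huniq p' hpT p1 hp1T e4 e3] at e2
    by_contra hne
    exact hκ (mul_left_cancel₀ hne (by rw [mul_one]; exact e2.symm))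
  obtain ⟨g, hgz, hge, hgb⟩ := D.kill p1.1
  obtain ⟨p', h', hp'⟩ := D.transport ρ hp1m g (D.P₀_comm ρ hgz)
  have hz0 : D.z 0 = 1 := (D.S ρ).z_zero
  have e4 : p'.2.2.2 = p1.2.2.2 := psi_eq fun v => by
    have := hp' (0, 0, 0, v) (0, 0, 0, v) 0 (by
      rw [hz0, mul_one]; simp only [el, xb_zero, xc_zero, xd_zero, one_mul, hge])
    simpa [pairing_apply] using this
  have e1' : p'.1 = 0 := psi_eq fun v => by
    obtain ⟨c, d, t, e⟩ := hgb v
    have := hp' (v, 0, 0, 0) (v, c, d, -(p1.1 * v)) t (by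
      simp only [el, xc_zero, xd_zero, xe_zero, mul_one]; exact e)
    simpa [pairing_apply, hp12, hp13, hp14] using this
  exact noB p' (fun h => by rw [h, hp14] at e4; exact zero_ne_one e4) h' e1'

end Data

end CfsgLib.Chev.D4Degree
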