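import Cfsg.Agent.Chev.D4Degree.Abstract
import Cfsg.Agent.Chev.D4Even.TorusChar
import Cfsg.Agent.Chev.Twisted.D4
import Cfsg.Agent.Chev.Calculus

/-!
# The Heisenberg section of `³D₄(q)`
-/

set_option autoImplicit false
set_option linter.unusedSectionVars false
set_option linter.unusedSimpArgs false
set_option maxRecDepth 100000

namespace CfsgLib.Chev.D4Degree

open Cfsg.Lie CfsgLib.Chev CfsgLib.Chev.Twisted Matrix

universe u

variable {K : Type u} [Field K]

/-- Root elements. -/
noncomputable abbrev X (r : ℕ) (t : K) : GL chevD4.Idx K := sysD4.xU r t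

theorem X_add (r : ℕ) (t u : K) : X r t * X r u = X r (t + u) := sysD4.xU_add r t u

theorem merge (r : ℕ) (t u : K) (Z : GL chevD4.Idx K) : X r t * (X r u * Z) = X r (t + u) * Z := by
  rw [← mul_assoc, X_add]

theorem X_zero (r : ℕ) : X r (0 : K) = 1 := sysD4.xU_zero r

theorem swap0 {r s : ℕ} (hr : r < 24) (hs : s < 24) (h1 : s ≠ r) (h2 : s ≠ chevD4.neg r)
    (h : chevD4.commTerms r s = []) (a b : K) (Z : GL chevD4.Idx K) :
    X s a * (X r b * Z) = X r b * (X s a * Z) := by
  rw [← mul_assoc, ← mul_assoc,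
    sysD4.comm_wU (show r < chevD4.nroots from hr) (show s < chevD4.nroots from hs) h1 h2 b a,
    ChevalleyDatum.commWord, h]
  simp [Sys.wU]

theorem swap1 {r s k : ℕ} {M : ℤ} (hr : r < 24) (hs : s < 24) (h1 : s ≠ r) (h2 : s ≠ chevD4.neg r)
    (h : chevD4.commTerms r s = [(k, M, 1, 1)]) (a b : K) (Z : GL chevD4.Idx K) :
    X s a * (X r b * Z) = X r b * (X s a * (X k (-(M : K) * (a * b)) * Z)) := by
  rw [← mul_assoc, ← mul_assoc,
    sysD4.comm_wU (show r < chevD4.nroots from hr) (show s < chevD4.nroots from hs) h1 h2 b a,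
    ChevalleyDatum.commWord, h]
  simp [Sys.wU, mul_assoc, mul_comm b a]

theorem ext_tail {A B : GL chevD4.Idx K} (h : ∀ Z, A * Z = B * Z) : A = B := by simpa using h 1

theorem nU_conj {i s s' : ℕ} {e : ℤ} (hi : i < 4) (hs : s < 24) (he : sysD4.{u}.eta i s = e)
    (hs' : sysD4.{u}.pi i s = s') (t : K) :
    sysD4.nU (chevD4.simple i) 1 * X s t * (sysD4.nU (chevD4.simple i) 1)⁻¹ = X s' ((e : K) * t) := by
  rw [← he, ← hs']
  exact sysD4.nU_conj_xU (show i < chevD4.rank from hi) (show s < chevD4.nroots from hs) t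

variable [Fintype K] {q : ℕ} (hq : IsPrimePow q) (hK : Fintype.card K = q ^ 3)

local notation "φ" => Twisted.D4.phi hq hK

include hq hK in
theorem phi3 (t : K) : φ (φ (φ t)) = t := by
  rw [Twisted.D4.phi_apply, Twisted.D4.phi_apply, Twisted.D4.phi_apply, ← pow_mul, ← pow_mul,
    show q * (q * q) = q ^ 3 by ring, ← hK, FiniteField.pow_card]

/-- The fixed field. -/
noncomputable abbrev FF : Subfield K := RingHom.eqLocusField φ (RingHom.id K)

theorem fix_val (v : FF hq hK) : φ (v : K) = (v : K) := v.2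

noncomputable instance : Fintype (FF hq hK) := Fintype.ofFinite _

theorem card_FF : Fintype.card (FF hq hK) = q := by
  rw [← Nat.card_eq_fintype_card]
  have h := card_fix_pow (F := K) (k := 1) (e := 3) (Twisted.D4.phi_apply hq hK) hq.pos
    (Twisted.D4.natCard hK) (one_dvd 3)
  rw [pow_one] at h
  exact h

local notation "G" => twistedD4 K q

/-- The element of the first relative root. -/
noncomputable def bw (t : K) : GL chevD4.Idx K := X 14 t
/-- The element of the short simple relative root. -/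
noncomputable def aw (t : K) : GL chevD4.Idx K := X 18 t * X 13 (φ t) * X 12 (φ (φ t))
/-- The element of the second layer. -/
noncomputable def cw (t : K) : GL chevD4.Idx K := X 19 t * X 16 (-φ t) * X 15 (-φ (φ t))
/-- The element of the third layer. -/
noncomputable def dw (t : K) : GL chevD4.Idx K := X 17 t * X 20 (-φ t) * X 21 (-φ (φ t))

theorem bw_mem {t : K} (ht : φ t = t) : bw t ∈ G := by
  rw [Twisted.D4.twisted_eq hq hK]
  have e : (Twisted.D4.orbits.{u}).xh 0 true (fun i => (φ)^[(i : ℕ)] t) = bw t := by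
    rw [Twisted.D4.xh_zero_eq]; simp [Sys.wU, bw, X, d4p2]
  rw [← e]
  exact Orbits.xh_mem _ _ _ _ fun i => Orbits.tw_of_iterate (show (φ)^[1] t = t from ht) i

theorem aw_mem (t : K) : aw hq hK t ∈ G := by
  rw [Twisted.D4.twisted_eq hq hK]
  have e : (Twisted.D4.orbits.{u}).xh 1 true (fun i => (φ)^[(i : ℕ)] t) = aw hq hK t := by
    rw [Twisted.D4.xh_one_eq]; simp [Sys.wU, aw, X, d4p1, d4p3, d4p4, mul_assoc]
  rw [← e]
  exact Orbits.xh_mem _ _ _ _ fun i => Orbits.tw_of_iterate (show (φ)^[3] t = t from phi3 hq hK t) i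

/-- The monomial element of the long simple relative root. -/
noncomputable def nb : GL chevD4.Idx K := sysD4.nw K [1]
/-- The monomial element of the short simple relative root. -/
noncomputable def na : GL chevD4.Idx K := sysD4.nw K [0, 2, 3]

include hq hK in
theorem nb_mem : (nb : GL chevD4.Idx K) ∈ G := by
  have h : (Twisted.D4.orbits.{u}).nJ K 0 ∈ G := (Twisted.D4.gdata hq hK).nJ_mem 0
  rwa [Orbits.nJ_eq_nw, show List.ofFn ((Twisted.D4.orbits.{u}).mem 0) = [1] by decide +kernel] at h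

include hq hK in
theorem na_mem : (na : GL chevD4.Idx K) ∈ G := by
  have h : (Twisted.D4.orbits.{u}).nJ K 1 ∈ G := (Twisted.D4.gdata hq hK).nJ_mem 1
  rwa [Orbits.nJ_eq_nw, show List.ofFn ((Twisted.D4.orbits.{u}).mem 1) = [0, 2, 3] by decide +kernel] at h

omit [Fintype K] in
theorem nb_conj {s s' : ℕ} {e : ℤ} (hs : s < 24) (he : sysD4.{u}.eta 1 s = e) (hs' : sysD4.{u}.pi 1 s = s') (t : K) :
    MulAut.conj (nb : GL chevD4.Idx K) (X s t) = X s' ((e : K) * t) := by
  show nb * X s t * nb⁻¹ = _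
  rw [nb, Sys.nw_cons, Sys.nw_nil, mul_one]
  exact nU_conj (by omega) hs he hs' t

omit [Fintype K] in
theorem na_conj {s s1 s2 s3 : ℕ} {e1 e2 e3 : ℤ} (hs : s < 24) (he1 : sysD4.{u}.eta 3 s = e1)
    (hs1 : sysD4.{u}.pi 3 s = s1) (h1 : s1 < 24) (he2 : sysD4.{u}.eta 2 s1 = e2) (hs2 : sysD4.{u}.pi 2 s1 = s2)
    (h2 : s2 < 24) (he3 : sysD4.{u}.eta 0 s2 = e3) (hs3 : sysD4.{u}.pi 0 s2 = s3) (t : K) :
    MulAut.conj (na : GL chevD4.Idx K) (X s t) = X s3 ((e3 : K) * ((e2 : K) * ((e1 : K) * t))) := by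
  show na * X s t * na⁻¹ = _
  rw [na, Sys.nw_cons, Sys.nw_cons, Sys.nw_cons, Sys.nw_nil, mul_one]
  rw [show ∀ a b c d : GL chevD4.Idx K, a * (b * c) * d * (a * (b * c))⁻¹ = a * (b * (c * d * c⁻¹) * b⁻¹) * a⁻¹
    from fun a b c d => by group, nU_conj (by omega) hs he1 hs1, nU_conj (by omega) h1 he2 hs2,
    nU_conj (by omega) h2 he3 hs3]

theorem nb_aw (t : K) : MulAut.conj nb (aw hq hK t) = cw hq hK t := by
  rw [aw, map_mul, map_mul,
    nb_conj (s' := 19) (e := 1) (by omega) (by decide +kernel) (by decide +kernel),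
    nb_conj (s' := 16) (e := -1) (by omega) (by decide +kernel) (by decide +kernel),
    nb_conj (s' := 15) (e := -1) (by omega) (by decide +kernel) (by decide +kernel)]
  simp [cw]

theorem na_cw (t : K) : MulAut.conj na (cw hq hK t) = dw hq hK t := by
  rw [cw, map_mul, map_mul,
    na_conj (s1 := 20) (s2 := 22) (s3 := 17) (e1 := 1) (e2 := 1) (e3 := 1) (by omega) (by decide +kernel)
      (by decide +kernel) (by omega) (by decide +kernel) (by decide +kernel) (by omega) (by decide +kernel)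
      (by decide +kernel),
    na_conj (s1 := 17) (s2 := 15) (s3 := 20) (e1 := 1) (e2 := -1) (e3 := -1) (by omega) (by decide +kernel)
      (by decide +kernel) (by omega) (by decide +kernel) (by decide +kernel) (by omega) (by decide +kernel)
      (by decide +kernel),
    na_conj (s1 := 14) (s2 := 16) (s3 := 21) (e1 := -1) (e2 := 1) (e3 := -1) (by omega) (by decide +kernel)
      (by decide +kernel) (by omega) (by decide +kernel) (by decide +kernel) (by omega) (by decide +kernel)
      (by decide +kernel)]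
  simp [dw]

omit [Fintype K] in
theorem na_bw (t : K) : MulAut.conj na (bw t) = X 22 (-t) := by
  rw [bw, na_conj (s1 := 15) (s2 := 17) (s3 := 22) (e1 := 1) (e2 := 1) (e3 := -1) (by omega) (by decide +kernel)
      (by decide +kernel) (by omega) (by decide +kernel) (by decide +kernel) (by omega) (by decide +kernel)
      (by decide +kernel)]
  simp

omit [Fintype K] in
theorem nb_X22 (t : K) : MulAut.conj nb (X 22 t) = X 23 t := by
  rw [nb_conj (s' := 23) (e := 1) (by omega) (by decide +kernel) (by decide +kernel)]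
  simp

include hq hK in
theorem conj_mem {n g g' : GL chevD4.Idx K} (hn : n ∈ G) (hg : g ∈ G) (e : MulAut.conj n g = g') : g' ∈ G :=
  e ▸ mul_mem (mul_mem hn hg) (inv_mem hn)

theorem cw_mem (t : K) : cw hq hK t ∈ G := conj_mem hq hK (nb_mem hq hK) (aw_mem hq hK t) (nb_aw hq hK t)

theorem dw_mem (t : K) : dw hq hK t ∈ G := conj_mem hq hK (na_mem hq hK) (cw_mem hq hK t) (na_cw hq hK t)

theorem X22_mem {t : K} (ht : φ t = t) : X 22 t ∈ G := by
  refine conj_mem hq hK (na_mem hq hK) (bw_mem hq hK (t := -t) (by rw [map_neg, ht])) ?_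
  rw [na_bw, _root_.neg_neg]

theorem X23_mem {t : K} (ht : φ t = t) : X 23 t ∈ G :=
  conj_mem hq hK (nb_mem hq hK) (X22_mem hq hK ht) (nb_X22 t)

section Rules

variable (a b : K) (Z : GL chevD4.Idx K)

local macro "rule0" : tactic => `(tactic| exact swap0 (by omega) (by omega) (by omega) (by decide +kernel)
  (by decide +kernel) _ _ _)

local macro "rule1" M:term:max : tactic => `(tactic| simpa using swap1 (M := $M) (by omega) (by omega) (by omega)
  (by decide +kernel) (by decide +kernel) a b Z)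

omit [Fintype K]

theorem R14_19 : X 19 a * (X 14 b * Z) = X 14 b * (X 19 a * Z) := by rule0
theorem R14_16 : X 16 a * (X 14 b * Z) = X 14 b * (X 16 a * Z) := by rule0
theorem R14_15 : X 15 a * (X 14 b * Z) = X 14 b * (X 15 a * Z) := by rule0
theorem R14_17 : X 17 a * (X 14 b * Z) = X 14 b * (X 17 a * Z) := by rule0
theorem R14_20 : X 20 a * (X 14 b * Z) = X 14 b * (X 20 a * Z) := by rule0
theorem R14_21 : X 21 a * (X 14 b * Z) = X 14 b * (X 21 a * Z) := by rule0
theorem R14_22 : X 22 a * (X 14 b * Z) = X 14 b * (X 22 a * (X 23 (-(a * b)) * Z)) := by rule1 1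
theorem R14_23 : X 23 a * (X 14 b * Z) = X 14 b * (X 23 a * Z) := by rule0
theorem R19_16 : X 16 a * (X 19 b * Z) = X 19 b * (X 16 a * Z) := by rule0
theorem R19_15 : X 15 a * (X 19 b * Z) = X 19 b * (X 15 a * Z) := by rule0
theorem R19_17 : X 17 a * (X 19 b * Z) = X 19 b * (X 17 a * (X 23 (a * b) * Z)) := by rule1 (-1)
theorem R19_20 : X 20 a * (X 19 b * Z) = X 19 b * (X 20 a * Z) := by rule0
theorem R19_21 : X 21 a * (X 19 b * Z) = X 19 b * (X 21 a * Z) := by rule0
theorem R19_22 : X 22 a * (X 19 b * Z) = X 19 b * (X 22 a * Z) := by rule0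
theorem R19_23 : X 23 a * (X 19 b * Z) = X 19 b * (X 23 a * Z) := by rule0
theorem R16_15 : X 15 a * (X 16 b * Z) = X 16 b * (X 15 a * Z) := by rule0
theorem R16_17 : X 17 a * (X 16 b * Z) = X 16 b * (X 17 a * Z) := by rule0
theorem R16_20 : X 20 a * (X 16 b * Z) = X 16 b * (X 20 a * (X 23 (a * b) * Z)) := by rule1 (-1)
theorem R16_21 : X 21 a * (X 16 b * Z) = X 16 b * (X 21 a * Z) := by rule0
theorem R16_22 : X 22 a * (X 16 b * Z) = X 16 b * (X 22 a * Z) := by rule0
theorem R16_23 : X 23 a * (X 16 b * Z) = X 16 b * (X 23 a * Z) := by rule0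
theorem R15_17 : X 17 a * (X 15 b * Z) = X 15 b * (X 17 a * Z) := by rule0
theorem R15_20 : X 20 a * (X 15 b * Z) = X 15 b * (X 20 a * Z) := by rule0
theorem R15_21 : X 21 a * (X 15 b * Z) = X 15 b * (X 21 a * (X 23 (a * b) * Z)) := by rule1 (-1)
theorem R15_22 : X 22 a * (X 15 b * Z) = X 15 b * (X 22 a * Z) := by rule0
theorem R15_23 : X 23 a * (X 15 b * Z) = X 15 b * (X 23 a * Z) := by rule0
theorem R17_20 : X 20 a * (X 17 b * Z) = X 17 b * (X 20 a * Z) := by rule0
theorem R17_21 : X 21 a * (X 17 b * Z) = X 17 b * (X 21 a * Z) := by rule0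
theorem R17_22 : X 22 a * (X 17 b * Z) = X 17 b * (X 22 a * Z) := by rule0
theorem R17_23 : X 23 a * (X 17 b * Z) = X 17 b * (X 23 a * Z) := by rule0
theorem R20_21 : X 21 a * (X 20 b * Z) = X 20 b * (X 21 a * Z) := by rule0
theorem R20_22 : X 22 a * (X 20 b * Z) = X 20 b * (X 22 a * Z) := by rule0
theorem R20_23 : X 23 a * (X 20 b * Z) = X 20 b * (X 23 a * Z) := by rule0
theorem R21_22 : X 22 a * (X 21 b * Z) = X 21 b * (X 22 a * Z) := by rule0
theorem R21_23 : X 23 a * (X 21 b * Z) = X 21 b * (X 23 a * Z) := by rule0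
theorem R22_23 : X 23 a * (X 22 b * Z) = X 22 b * (X 23 a * Z) := by rule0
theorem P18_14 : X 14 a * (X 18 b * Z) = X 18 b * (X 14 a * (X 19 (a * b) * Z)) := by rule1 (-1)
theorem P18_17 : X 17 a * (X 18 b * Z) = X 18 b * (X 17 a * (X 22 (a * b) * Z)) := by rule1 (-1)
theorem P18_20 : X 20 a * (X 18 b * Z) = X 18 b * (X 20 a * Z) := by rule0
theorem P18_21 : X 21 a * (X 18 b * Z) = X 18 b * (X 21 a * Z) := by rule0
theorem P18_22 : X 22 a * (X 18 b * Z) = X 18 b * (X 22 a * Z) := by rule0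
theorem P18_23 : X 23 a * (X 18 b * Z) = X 18 b * (X 23 a * Z) := by rule0
theorem P13_14 : X 14 a * (X 13 b * Z) = X 13 b * (X 14 a * (X 16 (-(a * b)) * Z)) := by rule1 1
theorem P13_19 : X 19 a * (X 13 b * Z) = X 13 b * (X 19 a * (X 21 (-(a * b)) * Z)) := by rule1 1
theorem P13_17 : X 17 a * (X 13 b * Z) = X 13 b * (X 17 a * Z) := by rule0
theorem P13_20 : X 20 a * (X 13 b * Z) = X 13 b * (X 20 a * (X 22 (-(a * b)) * Z)) := by rule1 1
theorem P13_21 : X 21 a * (X 13 b * Z) = X 13 b * (X 21 a * Z) := by rule0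
theorem P13_22 : X 22 a * (X 13 b * Z) = X 13 b * (X 22 a * Z) := by rule0
theorem P13_23 : X 23 a * (X 13 b * Z) = X 13 b * (X 23 a * Z) := by rule0
theorem P12_14 : X 14 a * (X 12 b * Z) = X 12 b * (X 14 a * (X 15 (-(a * b)) * Z)) := by rule1 1
theorem P12_19 : X 19 a * (X 12 b * Z) = X 12 b * (X 19 a * (X 20 (-(a * b)) * Z)) := by rule1 1
theorem P12_16 : X 16 a * (X 12 b * Z) = X 12 b * (X 16 a * (X 17 (-(a * b)) * Z)) := by rule1 1
theorem P12_17 : X 17 a * (X 12 b * Z) = X 12 b * (X 17 a * Z) := by rule0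
theorem P12_20 : X 20 a * (X 12 b * Z) = X 12 b * (X 20 a * Z) := by rule0
theorem P12_21 : X 21 a * (X 12 b * Z) = X 12 b * (X 21 a * (X 22 (-(a * b)) * Z)) := by rule1 1
theorem P12_22 : X 22 a * (X 12 b * Z) = X 12 b * (X 22 a * Z) := by rule0
theorem P12_23 : X 23 a * (X 12 b * Z) = X 12 b * (X 23 a * Z) := by rule0

end Rules

local macro "collect" : tactic => `(tactic| (
  refine ext_tail fun Z => ?_
  simp only [bw, cw, dw, aw, mul_assoc, merge, one_mul, R14_19, R14_16, R14_15, R14_17, R14_20, R14_21, R14_22,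
    R14_23, R19_16, R19_15, R19_17, R19_20, R19_21, R19_22, R19_23, R16_15, R16_17, R16_20, R16_21, R16_22,
    R16_23, R15_17, R15_20, R15_21, R15_22, R15_23, R17_20, R17_21, R17_22, R17_23, R20_21, R20_22, R20_23,
    R21_22, R21_23, R22_23, P18_14, P18_17, P18_20, P18_21, P18_22, P18_23, P13_14, P13_19, P13_17, P13_20,
    P13_21, P13_22, P13_23, P12_14, P12_19, P12_16, P12_17, P12_20, P12_21, P12_22, P12_23, map_neg, map_add,
    map_mul]
  all_goals (try ring_nf)))

/-- The trace to the fixed field. -/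
noncomputable def trF : K →+ FF hq hK :=
  AddMonoidHom.mk' (fun x => ⟨x + φ x + φ (φ x), by
      show φ (x + φ x + φ (φ x)) = x + φ x + φ (φ x)
      rw [map_add, map_add, phi3 hq hK]; ring⟩)
    (fun x y => by
      apply Subtype.ext
      simp only [map_add, Subfield.coe_add]
      ring)

theorem trF_val (x : K) : (trF hq hK x : K) = x + φ x + φ (φ x) := rfl

theorem trF_mul (a : FF hq hK) (x : K) : trF hq hK ((a : K) * x) = a * trF hq hK x := by
  apply Subtype.ext
  simp only [trF_val, Subfield.coe_mul, map_mul, fix_val hq hK a]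
  ring

theorem trF_surj (c : K) (hc : c ≠ 0) (a : FF hq hK) : ∃ d, trF hq hK (c * d) = a := by
  classical
  obtain ⟨x, hx⟩ : ∃ x : K, trF hq hK x ≠ 0 := by
    by_contra hall
    push Not at hall
    let p : Polynomial K := Polynomial.X ^ (q ^ 2) + Polynomial.X ^ q + Polynomial.X
    have hd : p.natDegree = q ^ 2 := by
      have h1 : q < q ^ 2 := by have := hq.two_le; nlinarith
      show (Polynomial.X ^ (q ^ 2) + Polynomial.X ^ q + Polynomial.X : Polynomial K).natDegree = q ^ 2
      rw [add_assoc, Polynomial.natDegree_add_eq_left_of_natDegree_lt, Polynomial.natDegree_X_pow]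
      rw [Polynomial.natDegree_X_pow]
      refine lt_of_le_of_lt (Polynomial.natDegree_add_le _ _) ?_
      rw [Polynomial.natDegree_X_pow, Polynomial.natDegree_X]
      exact max_lt h1 (lt_trans hq.one_lt h1)
    have hp0 : p ≠ 0 := fun h => by
      rw [h, Polynomial.natDegree_zero] at hd
      exact absurd hd (Nat.ne_of_lt (pow_pos hq.pos 2))
    have hsub : (Finset.univ : Finset K) ⊆ p.roots.toFinset := fun y _ => by
      rw [Multiset.mem_toFinset, Polynomial.mem_roots hp0, Polynomial.IsRoot.def]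
      have h := congrArg Subtype.val (hall y)
      rw [trF_val, Twisted.D4.phi_phi, Twisted.D4.phi_apply, ZeroMemClass.coe_zero] at h
      simp only [p, Polynomial.eval_add, Polynomial.eval_pow, Polynomial.eval_X]
      linear_combination h
    have := ((Finset.card_le_card hsub).trans (Multiset.toFinset_card_le _)).trans (Polynomial.card_roots' p)
    rw [Finset.card_univ, hK, hd] at this
    have := Nat.pow_lt_pow_right hq.two_le (show 2 < 3 by omega)
    omega
  refine ⟨c⁻¹ * ((a / trF hq hK x : FF hq hK) : K) * x, ?_⟩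
  rw [show c * (c⁻¹ * ((a / trF hq hK x : FF hq hK) : K) * x) = ((a / trF hq hK x : FF hq hK) : K) * x by
    field_simp, trF_mul, div_mul_cancel₀ _ hx]

theorem norm_surj (β : FF hq hK) : ∃ u : K, u * φ u * φ (φ u) = (β : K) := by
  by_cases hb : (β : K) = 0
  · exact ⟨0, by simp [hb]⟩
  obtain ⟨g, hg⟩ := IsCyclic.exists_ofOrder_eq_natCard (α := Kˣ)
  have hgen : ∀ x : Kˣ, x ∈ Submonoid.powers g := fun x => by
    rw [mem_powers_iff_mem_zpowers, Subgroup.eq_top_of_card_eq (Subgroup.zpowers g) (by rw [Nat.card_zpowers, hg])]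
    trivial
  obtain ⟨k, hk⟩ := hgen (Units.mk0 _ hb)
  have hfix : (g ^ k) ^ (q - 1) = 1 := by
    show (g ^ k) ^ (q - 1) = 1
    rw [show g ^ k = Units.mk0 _ hb from hk]
    refine Units.ext (mul_left_cancel₀ hb ?_)
    rw [Units.val_pow_eq_pow_val, Units.val_mk0, Units.val_one, mul_one, ← pow_succ',
      show q - 1 + 1 = q by have := hq.pos; omega]
    exact (Twisted.D4.phi_apply hq hK (β : K)).symm.trans (fix_val hq hK β)
  rw [← pow_mul, ← orderOf_dvd_iff_pow_eq_one, hg, Nat.card_units, Twisted.D4.natCard hK] at hfix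
  have hd : q ^ 2 + q + 1 ∣ k := by
    have e : q ^ 3 - 1 = (q ^ 2 + q + 1) * (q - 1) := by
      obtain ⟨r, rfl⟩ : ∃ r, q = r + 1 := ⟨q - 1, by have := hq.pos; omega⟩
      rw [Nat.add_sub_cancel, show (r + 1) ^ 3 = ((r + 1) ^ 2 + (r + 1) + 1) * r + 1 by ring, Nat.add_sub_cancel]
    rw [e] at hfix
    exact Nat.dvd_of_mul_dvd_mul_right (by have := hq.two_le; omega) hfix
  obtain ⟨j, rfl⟩ := hd
  refine ⟨((g ^ j : Kˣ) : K), ?_⟩
  have hb' := congrArg Units.val hk
  simp only [Units.val_pow_eq_pow_val, Units.val_mk0] at hb'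
  rw [← hb', Twisted.D4.phi_phi, Twisted.D4.phi_apply, Units.val_pow_eq_pow_val, ← pow_mul, ← pow_mul, ← pow_add,
    ← pow_add]
  congr 1
  ring

theorem shift_id (u d : K) :
    dw hq hK d * aw hq hK u = aw hq hK u * (dw hq hK d * X 22 (u * d + φ (u * d) + φ (φ (u * d)))) := by
  have h := phi3 hq hK
  collect

theorem kill_id (u v : K) (hv : φ v = v) :
    bw v * aw hq hK u = aw hq hK u * (bw v * cw hq hK (v * u) * dw hq hK (v * φ u * φ (φ u)) *
      X 22 (v * (u * φ u * φ (φ u))) * X 23 (v * v * (u * φ u * φ (φ u)))) := by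
  have h := phi3 hq hK
  refine ext_tail fun Z => ?_
  simp only [bw, cw, dw, aw, mul_assoc, merge, one_mul, R14_19, R14_16, R14_15, R14_17, R14_20, R14_21, R14_22,
    R14_23, R19_16, R19_15, R19_17, R19_20, R19_21, R19_22, R19_23, R16_15, R16_17, R16_20, R16_21, R16_22,
    R16_23, R15_17, R15_20, R15_21, R15_22, R15_23, R17_20, R17_21, R17_22, R17_23, R20_21, R20_22, R20_23,
    R21_22, R21_23, R22_23, P18_14, P18_17, P18_20, P18_21, P18_22, P18_23, P13_14, P13_19, P13_17, P13_20,
    P13_21, P13_22, P13_23, P12_14, P12_19, P12_16, P12_17, P12_20, P12_21, P12_22, P12_23, map_neg, map_add,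
    map_mul, hv, h]
  all_goals (try ring_nf)

theorem cd_id (a b : K) :
    dw hq hK b * cw hq hK a = cw hq hK a * dw hq hK b * X 23 (a * b + φ (a * b) + φ (φ (a * b))) := by
  collect

theorem z_cw (v a : K) : cw hq hK a * X 23 v = X 23 v * cw hq hK a := by collect
theorem z_dw (v a : K) : dw hq hK a * X 23 v = X 23 v * dw hq hK a := by collect
theorem z_aw (v a : K) : aw hq hK a * X 23 v = X 23 v * aw hq hK a := by collect
theorem e_aw (v a : K) : aw hq hK a * X 22 v = X 22 v * aw hq hK a := by collect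
theorem bc_id (v a : K) : cw hq hK a * bw v = bw v * cw hq hK a := by collect
theorem bd_id (v a : K) : dw hq hK a * bw v = bw v * dw hq hK a := by collect
theorem ce_id (v a : K) : X 22 v * cw hq hK a = cw hq hK a * X 22 v := by collect
theorem de_id (v a : K) : X 22 v * dw hq hK a = dw hq hK a * X 22 v := by collect
theorem z_bw (v a : K) : bw a * X 23 v = X 23 v * bw a := by collect
theorem ze_id (v a : K) : X 22 a * X 23 v = X 23 v * X 22 a := by collect
theorem be_id (a b : K) : X 22 b * bw a = bw a * X 22 b * X 23 (-(a * b)) := by collect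
theorem cw_add (a b : K) : cw hq hK (a + b) = cw hq hK a * cw hq hK b := by collect
theorem dw_add (a b : K) : dw hq hK (a + b) = dw hq hK a * dw hq hK b := by collect

/-! ### The torus -/

/-- The parameters of a torus element. -/
noncomputable def cvec (t s : Kˣ) : Fin chevD4.rank → Kˣ :=
  ![t, s, Units.map (φ : K →* K) t, Units.map (φ : K →* K) (Units.map (φ : K →* K) t)]

/-- The torus element with the parameters `t` and `s`. -/
noncomputable def hel (t s : Kˣ) : GL chevD4.Idx K := sysD4.theta (cvec hq hK t s)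

theorem hel_mem (t s : Kˣ) (hs : φ (s : K) = (s : K)) : hel hq hK t s ∈ G := by
  rw [Twisted.D4.twisted_eq hq hK]
  refine (Twisted.D4.orbits.{u}).theta_mem _ fun i => ?_
  obtain ⟨i, hi⟩ := i
  have hi' : i < 4 := hi
  refine Units.ext ?_
  interval_cases i
  · rfl
  · exact hs.symm
  · rfl
  · exact (phi3 hq hK (t : K)).symm

theorem hel_conj (t s : Kˣ) {r : ℕ} (hr : r < 24) {l : List ℤ}
    (hl : (List.range 4).map (fun j => chevD4.cartan j r) = l) (v : K) :
    hel hq hK t s * X r v = X r ((t : K) ^ (l.getD 0 0) * (s : K) ^ (l.getD 1 0) * φ (t : K) ^ (l.getD 2 0) *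
      φ (φ (t : K)) ^ (l.getD 3 0) * v) * hel hq hK t s := by
  subst hl
  show sysD4.dg (torHom chevD4 (cvec hq hK t s)) * sysD4.xU r v = _
  rw [sysD4.dg_xU _ (show r < chevD4.nroots from hr)]
  congr 2
  rw [sysD4.chi_torHom_prod _ (show r < chevD4.nroots from hr)]
  show ((∏ l : Fin 4, (![t, s, Units.map (φ : K →* K) t, Units.map (φ : K →* K) (Units.map (φ : K →* K) t)] :
    Fin 4 → Kˣ) l ^ chevD4.cartan (l : ℕ) r : Kˣ) : K) * v = _
  rw [Fin.prod_univ_four]
  simp [List.range_succ]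

theorem hel_bw (t s : Kˣ) (v : K) : hel hq hK t s * bw v =
    bw ((s : K) ^ 2 / ((t : K) * φ (t : K) * φ (φ (t : K))) * v) * hel hq hK t s := by
  rw [bw, hel_conj hq hK t s (l := [-1, 2, -1, -1]) (by omega) (by decide +kernel)]
  congr 2
  simp only [List.getD_cons_zero, List.getD_cons_succ, _root_.zpow_neg, zpow_one, zpow_zero, zpow_ofNat, one_mul, mul_one,
    div_eq_mul_inv, mul_inv]
  ring

theorem hel_X22 (t s : Kˣ) (v : K) : hel hq hK t s * X 22 v =
    X 22 ((t : K) * φ (t : K) * φ (φ (t : K)) / (s : K) * v) * hel hq hK t s := by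
  rw [hel_conj hq hK t s (l := [1, -1, 1, 1]) (by omega) (by decide +kernel)]
  congr 2
  simp only [List.getD_cons_zero, List.getD_cons_succ, _root_.zpow_neg, zpow_one, zpow_zero, zpow_ofNat, one_mul, mul_one,
    div_eq_mul_inv, mul_inv]
  ring

theorem hel_X23 (t s : Kˣ) (v : K) : hel hq hK t s * X 23 v = X 23 ((s : K) * v) * hel hq hK t s := by
  rw [hel_conj hq hK t s (l := [0, 1, 0, 0]) (by omega) (by decide +kernel)]
  simp

theorem hel_cw (t s : Kˣ) (hs : φ (s : K) = (s : K)) (v : K) : hel hq hK t s * cw hq hK v =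
    cw hq hK ((t : K) * (s : K) / (φ (t : K) * φ (φ (t : K))) * v) * hel hq hK t s := by
  have h19 := hel_conj hq hK t s (r := 19) (l := [1, 1, -1, -1]) (by omega) (by decide +kernel)
  have h16 := hel_conj hq hK t s (r := 16) (l := [-1, 1, 1, -1]) (by omega) (by decide +kernel)
  have h15 := hel_conj hq hK t s (r := 15) (l := [-1, 1, -1, 1]) (by omega) (by decide +kernel)
  rw [cw, cw, ← mul_assoc, ← mul_assoc, h19, mul_assoc (X 19 _), h16, ← mul_assoc, mul_assoc (_ * X 16 _), h15,
    ← mul_assoc]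
  simp [div_eq_mul_inv, map_inv₀, hs, phi3 hq hK]
  ring_nf

theorem hel_dw (t s : Kˣ) (v : K) : hel hq hK t s * dw hq hK v =
    dw hq hK (φ (t : K) * φ (φ (t : K)) / (t : K) * v) * hel hq hK t s := by
  have h17 := hel_conj hq hK t s (r := 17) (l := [-1, 0, 1, 1]) (by omega) (by decide +kernel)
  have h20 := hel_conj hq hK t s (r := 20) (l := [1, 0, -1, 1]) (by omega) (by decide +kernel)
  have h21 := hel_conj hq hK t s (r := 21) (l := [1, 0, 1, -1]) (by omega) (by decide +kernel)
  rw [dw, dw, ← mul_assoc, ← mul_assoc, h17, mul_assoc (X 17 _), h20, ← mul_assoc, mul_assoc (_ * X 20 _), h21,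
    ← mul_assoc]
  simp [div_eq_mul_inv, map_inv₀, phi3 hq hK]
  ring_nf

/-- The data of `³D₄(q)`. -/
noncomputable def data : Data ↥G (FF hq hK) K where
  xb v := ⟨bw (v : K), bw_mem hq hK (fix_val hq hK v)⟩
  xc v := ⟨cw hq hK v, cw_mem hq hK v⟩
  xd v := ⟨dw hq hK v, dw_mem hq hK v⟩
  xe v := ⟨X 22 (v : K), X22_mem hq hK (fix_val hq hK v)⟩
  z v := ⟨X 23 (v : K), X23_mem hq hK (fix_val hq hK v)⟩
  xb_add a b := Subtype.ext (X_add 14 (a : K) (b : K)).symm
  xc_add a b := Subtype.ext (cw_add hq hK a b)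
  xd_add a b := Subtype.ext (dw_add hq hK a b)
  xe_add a b := Subtype.ext (X_add 22 (a : K) (b : K)).symm
  z_add a b := Subtype.ext (X_add 23 (a : K) (b : K)).symm
  sc := (FF hq hK).subtype
  tr := trF hq hK
  tr_sc a x := trF_mul hq hK a x
  tr_surj c hc a := trF_surj hq hK c hc a
  zb v a := Subtype.ext (z_bw (v : K) (a : K))
  zc v a := Subtype.ext (z_cw hq hK (v : K) a)
  zd v a := Subtype.ext (z_dw hq hK (v : K) a)
  ze v a := Subtype.ext (ze_id (v : K) (a : K))
  bc a b := Subtype.ext (bc_id hq hK (a : K) b)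
  bd a b := Subtype.ext (bd_id hq hK (a : K) b)
  ce a b := Subtype.ext (ce_id hq hK (b : K) a)
  de a b := Subtype.ext (de_id hq hK (b : K) a)
  be a b := Subtype.ext (be_id (a : K) (b : K))
  cd a b := Subtype.ext (cd_id hq hK a b)
  ztrans a ha := by
    have ha' : (a : K) ≠ 0 := fun h => ha (Subtype.ext h)
    refine ⟨⟨hel hq hK 1 (Units.mk0 _ ha'), hel_mem hq hK _ _ (fix_val hq hK a)⟩, fun v => Subtype.ext ?_⟩
    exact hel_X23 hq hK 1 (Units.mk0 _ ha') (v : K)
  scal l hl := by
    have hl' : (l : K) ≠ 0 := fun h => hl (Subtype.ext h)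
    have hf : φ (l : K) = (l : K) := fix_val hq hK l
    refine ⟨⟨hel hq hK (Units.mk0 _ hl') (Units.mk0 _ hl' * Units.mk0 _ hl'), hel_mem hq hK _ _ ?_⟩, l * l,
      mul_ne_zero hl hl, fun v => Subtype.ext ?_, fun v => Subtype.ext ?_, fun v => Subtype.ext ?_,
      fun v => Subtype.ext ?_, fun v => Subtype.ext ?_⟩
    · simp [hf]
    · refine (hel_X23 hq hK _ _ (v : K)).trans ?_
      simp [mul_assoc]
    · refine (hel_bw hq hK _ _ (v : K)).trans ?_
      simp only [Units.val_mul, Units.val_mk0, hf, Subgroup.coe_mul, Subfield.coe_mul]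
      congr 2
      field_simp
    · refine (hel_cw hq hK _ _ (by simp [hf]) v).trans ?_
      simp only [Units.val_mul, Units.val_mk0, hf, Subgroup.coe_mul, Subfield.coe_subtype]
      congr 2
      field_simp
    · refine (hel_dw hq hK _ _ v).trans ?_
      simp only [Units.val_mul, Units.val_mk0, hf, Subgroup.coe_mul, Subfield.coe_subtype]
      congr 2
      field_simp
    · refine (hel_X22 hq hK _ _ (v : K)).trans ?_
      simp only [Units.val_mul, Units.val_mk0, hf, Subgroup.coe_mul, Subfield.coe_mul]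
      congr 2
      field_simp
  toE := ⟨⟨nb⁻¹, inv_mem (nb_mem hq hK)⟩, fun v => Subtype.ext (by
    show nb⁻¹ * X 23 (v : K) = X 22 (v : K) * nb⁻¹
    rw [← nb_X22, MulAut.conj_apply]; group)⟩
  toB := ⟨⟨na⁻¹ * nb⁻¹, mul_mem (inv_mem (na_mem hq hK)) (inv_mem (nb_mem hq hK))⟩, fun v => Subtype.ext (by
    show na⁻¹ * nb⁻¹ * X 23 (v : K) = bw (((-v : FF hq hK)) : K) * (na⁻¹ * nb⁻¹)
    have h := na_bw (-(v : K))
    rw [_root_.neg_neg] at h
    rw [show (((-v : FF hq hK)) : K) = -(v : K) from rfl, ← nb_X22, ← h, MulAut.conj_apply, MulAut.conj_apply]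
    group)⟩
  shift l := ⟨⟨aw hq hK l, aw_mem hq hK l⟩, fun v => Subtype.ext (z_aw hq hK (v : K) l),
    fun v => Subtype.ext (e_aw hq hK (v : K) l), fun d => Subtype.ext (shift_id hq hK l d)⟩
  kill β := by
    obtain ⟨u, hu⟩ := norm_surj hq hK (-β)
    refine ⟨⟨aw hq hK u, aw_mem hq hK u⟩, fun v => Subtype.ext (z_aw hq hK (v : K) u),
      fun v => Subtype.ext (e_aw hq hK (v : K) u), fun v =>
      ⟨(v : K) * u, (v : K) * φ u * φ (φ u), -(β * (v * v)), Subtype.ext ?_⟩⟩
    refine (kill_id hq hK u (v : K) (fix_val hq hK v)).trans ?_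
    rw [hu]
    simp only [Subgroup.coe_mul, Subfield.coe_mul, Subfield.coe_neg]
    ring_nf
  twist := by
    obtain ⟨t, ht⟩ : ∃ t : Kˣ, (t : K) * t ≠ 1 := by
      classical
      by_contra hc'
      push Not at hc'
      have hsub : (Finset.univ : Finset K) ⊆ {0, 1, -1} := fun x _ => by
        by_cases hx : x = 0
        · simp [hx]
        · rcases mul_self_eq_one_iff.1 (hc' (Units.mk0 x hx)) with h | h <;> simp_all
      have h8 : 2 ^ 3 ≤ Fintype.card K := hK ▸ Nat.pow_le_pow_left hq.two_le 3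
      have := (Finset.card_le_card hsub).trans Finset.card_le_three
      rw [Finset.card_univ] at this
      omega
    let s : Kˣ := t * Units.map (φ : K →* K) t * Units.map (φ : K →* K) (Units.map (φ : K →* K) t)
    have hsv : (s : K) = (t : K) * φ (t : K) * φ (φ (t : K)) := rfl
    have hs : φ (s : K) = (s : K) := by rw [hsv, map_mul, map_mul, phi3 hq hK]; ring
    have h1 : φ (t : K) ≠ 0 := (map_ne_zero _).2 t.ne_zero
    have h2 : φ (φ (t : K)) ≠ 0 := (map_ne_zero _).2 h1
    refine ⟨⟨hel hq hK t s, hel_mem hq hK t s hs⟩, ⟨(s : K), hs⟩, (t : K) * t,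
      φ (t : K) * φ (φ (t : K)) / (t : K), fun h => s.ne_zero (congrArg Subtype.val h), ht,
      fun v => Subtype.ext (hel_X23 hq hK t s (v : K)), fun v => Subtype.ext ?_,
      fun v => Subtype.ext (hel_dw hq hK t s v), fun v => Subtype.ext ?_⟩
    · refine (hel_cw hq hK t s hs v).trans ?_
      simp only [Subgroup.coe_mul]
      rw [hsv]
      congr 2
      field_simp
    · refine (hel_X22 hq hK t s (v : K)).trans ?_
      simp only [Subgroup.coe_mul]
      rw [← hsv, div_self s.ne_zero, one_mul]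

theorem data_z_one : (data hq hK).z 1 ≠ 1 := fun h =>
  one_ne_zero (α := K) (sysD4.coef_eq (show (23 : ℕ) < chevD4.nroots by decide +kernel)
    ((congrArg Subtype.val h).trans (sysD4.xU_zero 23).symm))

end CfsgLib.Chev.D4Degree
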